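import Cfsg.Agent.H11.SimDSpec

/-! # S3694 (tower SIM), chapter D: the invariant subspaces in the linear case. -/

set_option autoImplicit false

namespace H31.SimD2L

open Matrix H0.Sim H11.SimD

theorem jobD_D2L : JobD2L := by
  intro lt n F _ _ q W₁ W₂ X _ _ h12 hX
  obtain ⟨tr, sep, -⟩ := lt n F q
  have step : ∀ Y : Submodule F (Fin n → F), Y ≤ X → X ≠ Y → ∀ w : Fin n → F,
      (w ∈ W₁ ∨ W₁ ≤ Y) → (w ∈ W₂ ∨ W₂ ≤ Y) → w ∈ X := by
    intro Y YX ne w k1 k2
    obtain ⟨x, hx, xY⟩ := SetLike.not_le_iff_exists.1 fun h : X ≤ Y => ne (le_antisymm h YX)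
    by_cases hs : x ∈ Y ⊔ Submodule.span F {w}
    · obtain ⟨y, hy, z, hz, e⟩ := Submodule.mem_sup.1 hs
      obtain ⟨c, rfl⟩ := Submodule.mem_span_singleton.1 hz
      have c0 : c ≠ 0 := fun h => xY (by rw [← e, h, zero_smul, add_zero]; exact hy)
      have m : c • w ∈ X := by
        rw [eq_sub_of_add_eq' e]; exact X.sub_mem hx (YX hy)
      exact (X.smul_mem_iff c0).1 m
    obtain ⟨φ, φ1, φ0⟩ := sep _ x hs
    obtain ⟨s, hs', e⟩ := tr w φ
      (φ0 w (Submodule.mem_sup_right (Submodule.mem_span_singleton_self w)))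
    have sb : ∀ W : Submodule F (Fin n → F), (w ∈ W ∨ W ≤ Y) → Sb s W := fun W k v hv => by
      rw [e]
      rcases k with k | k
      · exact W.add_mem hv (W.smul_mem _ k)
      · rw [φ0 v (Submodule.mem_sup_left (k hv)), zero_smul, add_zero]; exact hv
    have := hX s hs' (sb _ k1) (sb _ k2) x hx
    rw [e, φ1, one_smul] at this
    exact (X.add_mem_iff_right hx).1 this
  by_cases h0 : X = ⊥
  · exact Or.inl h0
  have l1 : W₁ ≤ X := fun w hw => step ⊥ bot_le h0 w (Or.inl hw) (Or.inl (h12 hw))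
  by_cases h1 : X = W₁
  · exact Or.inr (Or.inl h1)
  have l2 : W₂ ≤ X := fun w hw => step W₁ l1 h1 w (Or.inr le_rfl) (Or.inl hw)
  by_cases h2 : X = W₂
  · exact Or.inr (Or.inr (Or.inl h2))
  exact Or.inr (Or.inr (Or.inr (eq_top_iff.2 fun w _ =>
    step W₂ l2 h2 w (Or.inr h12) (Or.inr le_rfl))))

end H31.SimD2L
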