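/- Tower E82 (S5915): slot Grp. -/
import Cfsg.Agent.H40.E82Spec
import Cfsg.Agent.H61.PSLMin
import Cfsg.Agent.S0243
import Cfsg.Agent.S1265

set_option autoImplicit false
set_option linter.unusedSectionVars false

namespace H31.E82G

open Cfsg Matrix H56.SL2M Subgroup MulAction
open scoped MatrixGroups Pointwise

universe u
variable {F : Type u} [Field F] [Fintype F]

theorem two0 (hF : Fintype.card F = 64) : (2 : F) = 0 := by
  have : ((2 : F)) ^ 6 = 0 := by
    have := Nat.cast_card_eq_zero F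
    rw [hF] at this
    exact_mod_cast this
  exact pow_eq_zero_iff (by decide) |>.1 this

theorem me (a b : SL(2, F)) (i j : Fin 2) : (a * b) i j = a i 0 * b 0 j + a i 1 * b 1 j :=
  (mul_apply (M := a.1) (N := b.1)).trans (Fin.sum_univ_two _)

theorem ex (t : F) (s : Fˣ) : (xx t 0 0 = 1 ∧ xx t 0 1 = t ∧ xx t 1 0 = 0 ∧ xx t 1 1 = 1) ∧
    hh s 0 0 = (s : F) ∧ hh s 0 1 = 0 ∧ hh s 1 0 = 0 ∧ hh s 1 1 = ((s⁻¹ : Fˣ) : F) :=
  ⟨⟨rfl, rfl, rfl, rfl⟩, rfl, rfl, rfl, rfl⟩

/-- An upper triangular element commuting with a matrix that is not upper triangular is trivial. -/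
theorem eq_one (hF : Fintype.card F = 64) {d x : SL(2, F)} (hd : d 1 0 = 0) (hx : x 1 0 ≠ 0)
    (h : d * x = x * d) : d = 1 := by
  obtain ⟨s, t, rfl⟩ := bruhat_zero d hd
  have h1 : (hh s * xx t * x) 1 0 = (x * (hh s * xx t)) 1 0 := by rw [h]
  have h2 : (hh s * xx t * x) 0 0 = (x * (hh s * xx t)) 0 0 := by rw [h]
  simp only [me, ex t s, mul_one, mul_zero, zero_mul, add_zero, zero_add, Units.val_inv_eq_inv_val] at h1 h2
  have e : (s : F) * s = 1 := by
    have : (s : F)⁻¹ = s := mul_right_cancel₀ hx (h1.trans (mul_comm _ _))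
    nth_rewrite 1 [← this]; exact inv_mul_cancel₀ s.ne_zero
  have s1 : (s : F) = 1 := by
    have : ((s : F) - 1) ^ 2 = 0 := by linear_combination e - (s - 1) * two0 hF
    exact sub_eq_zero.1 (pow_eq_zero_iff two_ne_zero |>.1 this)
  have t0 : t = 0 := by
    rw [s1] at h2
    exact (mul_eq_zero.1 (by linear_combination h2 : t * x 1 0 = 0)).resolve_right hx
  rw [t0, xx_zero, mul_one, show s = 1 from Units.ext s1, hh_one]

theorem cen (hF : Fintype.card F = 64) : center SL(2, F) = ⊥ :=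
  eq_bot_iff.2 fun d hd => by
    have h : (xx (1 : F) * d) 0 0 = (d * xx (1 : F)) 0 0 := by rw [mem_center_iff.1 hd (xx 1)]
    simp only [me, ex (1 : F) 1] at h
    exact eq_one hF (x := ww) (by linear_combination h) (by simp [ww_coe]) (mem_center_iff.1 hd ww).symm

noncomputable def cc (hF : Fintype.card F = 64) : SL(2, F) ≃* PSL(2, F) :=
  MulEquiv.ofBijective (QuotientGroup.mk' _) ⟨(MonoidHom.ker_eq_bot_iff _).1
    ((QuotientGroup.ker_mk' _).trans (cen hF)), QuotientGroup.mk'_surjective _⟩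

theorem cardL (hF : Fintype.card F = 64) : Nat.card SL(2, F) = 262080 := by
  have h4 := Agent.S0243.result hF 2 le_rfl
  rw [Nat.card_congr (cc hF).toEquiv]
  simp [Fin.prod_univ_two] at h4; omega

def Ux : Subgroup SL(2, F) where
  carrier := Set.range xx
  one_mem' := ⟨0, xx_zero⟩
  mul_mem' := by rintro _ _ ⟨a, rfl⟩ ⟨b, rfl⟩; exact ⟨a + b, xx_add a b⟩
  inv_mem' := by
    rintro _ ⟨a, rfl⟩
    exact ⟨-a, eq_inv_of_mul_eq_one_left (by rw [← xx_add, neg_add_cancel, xx_zero])⟩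

theorem xx_inj : Function.Injective (xx : F → SL(2, F)) := fun a b h => by
  simpa [xx_coe] using congrArg (fun g : SL(2, F) => g 0 1) h

noncomputable def UU (hF : Fintype.card F = 64) : Sylow 2 SL(2, F) :=
  Sylow.ofCard Ux (by
    rw [cardL hF, show Nat.card (Ux (F := F)) = Nat.card (Set.range (xx : F → SL(2, F))) from rfl,
      Nat.card_range_of_injective xx_inj, Nat.card_eq_fintype_card, hF,
      show 262080 = 2 ^ 6 * 4095 from rfl, Nat.factorization_mul (by decide) (by decide),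
      Nat.prime_two.factorization_pow]
    simp [Nat.factorization_eq_zero_of_not_dvd (show ¬ 2 ∣ 4095 by decide)])

theorem stab (hF : Fintype.card F = 64) {g : SL(2, F)} : g • UU hF = UU hF ↔ g 1 0 = 0 := by
  rw [Sylow.smul_eq_iff_mem_normalizer]
  refine ⟨fun h => ?_, fun h => mem_normalizer_fintype ?_⟩
  · obtain ⟨t, ht⟩ : g * xx 1 * g⁻¹ ∈ Ux := (mem_normalizer_iff.1 h (xx 1)).1 ⟨1, rfl⟩
    have h2 : (xx t * g) 1 1 = (g * xx (1 : F)) 1 1 := by rw [eq_mul_inv_iff_mul_eq.1 ht]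
    simp only [me, ex (1 : F) 1, ex t 1] at h2
    linear_combination -h2
  · obtain ⟨s, t, rfl⟩ := bruhat_zero g h
    rintro _ ⟨a, rfl⟩
    refine ⟨s * s * a, eq_mul_inv_iff_mul_eq.2 ?_⟩
    rw [← mul_assoc, ← hh_xx, mul_assoc, mul_assoc, ← xx_add, ← xx_add, add_comm]

theorem cardN (hF : Fintype.card F = 64) : Nat.card (stabilizer SL(2, F) (UU hF)) = 4032 := by
  have : Function.Bijective fun p : Fˣ × F => (⟨hh p.1 * xx p.2, (stab hF).2 (by
      simp only [me, ex p.2 p.1]; ring)⟩ : stabilizer SL(2, F) (UU hF)) := by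
    refine ⟨fun p q h => ?_, fun g => ?_⟩
    · have h0 := congrArg Subtype.val h
      have h1 : (hh p.1 * xx p.2) 0 0 = (hh q.1 * xx q.2) 0 0 := congrArg (fun g : SL(2, F) => g 0 0) h0
      simp only [me, ex p.2 p.1, ex q.2 q.1] at h1
      have e : p.1 = q.1 := Units.ext (by linear_combination h1)
      exact Prod.ext e (xx_inj (mul_left_cancel (a := hh q.1) (by simpa [e] using h0)))
    · obtain ⟨s, t, e⟩ := bruhat_zero g.1 ((stab hF).1 g.2)
      exact ⟨(s, t), Subtype.ext e.symm⟩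
  rw [← Nat.card_eq_of_bijective _ this, Nat.card_prod, Nat.card_units, Nat.card_eq_fintype_card, hF]

theorem cardO (hF : Fintype.card F = 64) : Nat.card (Sylow 2 SL(2, F)) = 65 := by
  have h := card_mul_index (stabilizer SL(2, F) (UU hF))
  rw [cardN, cardL hF, index_stabilizer_of_transitive] at h
  omega

theorem free (hF : Fintype.card F = 64) {y z : SL(2, F)} (hy : orderOf y = 65) (hz : z ∈ zpowers y)
    (h : z • UU hF = UU hF) : z = 1 := by
  have h1 := orderOf_dvd_of_mem_zpowers hz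
  have h2 := (stabilizer SL(2, F) (UU hF)).orderOf_dvd_natCard h
  rw [hy] at h1
  rw [cardN] at h2
  exact orderOf_eq_one_iff.1 (Nat.eq_one_of_dvd_coprimes (by norm_num) h1 h2)

theorem tr (hF : Fintype.card F = 64) {y : SL(2, F)} (hy : orderOf y = 65) (P : Sylow 2 SL(2, F)) :
    ∃ z ∈ zpowers y, z • UU hF = P := by
  have : Function.Bijective fun z : zpowers y => z.1 • UU hF :=
    (Nat.bijective_iff_injective_and_card _).2 ⟨fun a b h => Subtype.ext (by
      have := free hF hy (mul_mem (inv_mem b.2) a.2) (by rw [mul_smul, inv_smul_eq_iff]; exact h)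
      exact (inv_mul_eq_one.1 this).symm), by rw [Nat.card_zpowers, hy, cardO hF]⟩
  obtain ⟨z, hz⟩ := this.2 P
  exact ⟨z.1, z.2, hz⟩

theorem faith (hF : Fintype.card F = 64) {g : SL(2, F)} (h : ∀ P : Sylow 2 SL(2, F), g • P = P) : g = 1 := by
  have := H61.isSimpleGroup_psl (F := F) (by rw [Nat.card_eq_fintype_card, hF]; decide)
  have := (cc hF).isSimpleGroup
  rcases (toPermHom SL(2, F) (Sylow 2 SL(2, F))).normal_ker.eq_bot_or_eq_top with e | e
  · exact e.le (show g ∈ MonoidHom.ker _ from Equiv.ext h)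
  · have : (ww : SL(2, F)) • UU hF = UU hF := Equiv.ext_iff.1 (e.ge (mem_top ww)) _
    exact absurd ((stab hF).1 this) (by simp [ww_coe])

theorem aut_smul (α : MulAut SL(2, F)) (g : SL(2, F)) (P : Sylow 2 SL(2, F)) :
    α • g • P = α g • α • P := by
  rw [Sylow.smul_def, Sylow.smul_def, ← mul_smul, ← mul_smul]
  congr 1
  ext1 x
  simp

theorem autA (hF : Fintype.card F = 64) {y : SL(2, F)} (hy : orderOf y = 65) (α : MulAut SL(2, F))
    (h : α y = y) : ∃ z ∈ zpowers y, ∀ g, α g = z * g * z⁻¹ := by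
  obtain ⟨z, hz, e⟩ := tr hF hy (α • UU hF)
  have k : ∀ P : Sylow 2 SL(2, F), α • P = z • P := fun P => by
    obtain ⟨w, hw, rfl⟩ := tr hF hy P
    obtain ⟨i, rfl⟩ := mem_zpowers_iff.1 hw
    obtain ⟨j, rfl⟩ := mem_zpowers_iff.1 hz
    rw [aut_smul, ← e, map_zpow, h, ← mul_smul, ← mul_smul, zpow_mul_comm]
  refine ⟨z, hz, fun g => (inv_mul_eq_one.1 (faith hF fun P => ?_)).symm⟩
  obtain ⟨Q, rfl⟩ : ∃ Q : Sylow 2 SL(2, F), P = z • Q := ⟨z⁻¹ • P, by simp⟩
  rw [mul_smul, inv_smul_eq_iff, ← k, ← aut_smul, k, k, ← mul_smul, ← mul_smul, inv_mul_cancel_right]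

theorem autB (hF : Fintype.card F = 64) {y : SL(2, F)} (hy : orderOf y = 65) (α : MulAut SL(2, F)) :
    ∃ (g : SL(2, F)) (i : ℕ), g * α y * g⁻¹ = y ^ i := by
  have : Fact (Nat.Prime 13) := ⟨by norm_num⟩
  have o : ∀ x : SL(2, F), orderOf x = 65 → orderOf (x ^ 5) = 13 := fun x hx => by
    rw [orderOf_pow' _ (by decide), hx]; rfl
  have c : ∀ x : SL(2, F), orderOf x = 65 →
      Nat.card (zpowers (x ^ 5)) = 13 ^ (Nat.card SL(2, F)).factorization 13 := fun x hx => by
    rw [Nat.card_zpowers, o x hx, cardL hF, show 262080 = 13 * 20160 from rfl,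
      Nat.factorization_mul (by decide) (by decide)]
    simp [Nat.factorization_eq_zero_of_not_dvd (show ¬ 13 ∣ 20160 by decide), this.out.factorization]
  obtain ⟨g, hg⟩ := exists_smul_eq SL(2, F) (Sylow.ofCard _ (c (α y) ((α.orderOf_eq y).trans hy)))
    (Sylow.ofCard _ (c y hy))
  have e : MulAut.conj g • zpowers (α y ^ 5) = zpowers (y ^ 5) := congrArg Sylow.toSubgroup hg
  obtain ⟨x, hx, e2⟩ := (mem_smul_pointwise_iff_exists _ _ _).1 (e ▸ mem_zpowers (y ^ 5))
  obtain ⟨j, rfl⟩ := mem_zpowers_iff.1 hx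
  have cm : Commute (g * α y * g⁻¹) (y ^ 5) := by
    rw [← e2]
    exact (((Commute.refl (α y)).pow_right 5).zpow_right j).map (MulAut.conj g)
  obtain ⟨z, hz, e3⟩ := tr hF hy ((g * α y * g⁻¹) • UU hF)
  have : z⁻¹ * (g * α y * g⁻¹) = 1 := eq_one hF (x := y ^ 5)
    ((stab hF).1 (by rw [mul_smul, inv_smul_eq_iff, e3])) (fun q => by
      have := o y hy
      rw [free hF hy (pow_mem (mem_zpowers y) 5) ((stab hF).2 q), orderOf_one] at this
      omega) (by
      obtain ⟨i, rfl⟩ := mem_zpowers_iff.1 hz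
      exact (((Commute.refl y).pow_right 5).zpow_left i).inv_left.mul_left cm)
  obtain ⟨i, hi⟩ := (mem_powers_iff_mem_zpowers.2 hz : z ∈ Submonoid.powers y)
  exact ⟨g, i, (inv_mul_eq_one.1 this).symm.trans hi.symm⟩

theorem jobGrp : H40.E82.JobGrp.{u} := by
  intro F _ _ hF G _ _ H ⟨e⟩
  let c : SL(2, F) ≃* generalizedFittingSubgroup H := (cc hF).trans e.symm
  let ψ : SL(2, F) →* G := (H.subtype.comp (Subgroup.subtype _)).comp c.toMonoidHom
  have hψ : Function.Injective ψ :=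
    (H.subtype_injective.comp (Subgroup.subtype_injective _)).comp c.injective
  have le : ψ.range ≤ H := by rintro _ ⟨g, rfl⟩; exact (c g).1.2
  have au : ∀ h ∈ H, ∃ α : SL(2, F) ≃* SL(2, F), ∀ g, h * ψ g = ψ (α g) * h := fun h hh =>
    ⟨(c.trans (MulAut.conjNormal (⟨h, hh⟩ : H))).trans c.symm, fun g => by simp [ψ]⟩
  refine ⟨ψ, hψ, le, au, fun y hy => ⟨fun h hh e => ?_, fun h hh => ?_⟩⟩
  · obtain ⟨α, hα⟩ := au h hh
    obtain ⟨z, hz, k⟩ := autA hF hy α (hψ (mul_right_cancel ((hα y).symm.trans e)))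
    have cm : ∀ g, ψ g * ((ψ z)⁻¹ * h) = (ψ z)⁻¹ * h * ψ g := fun g => by
      rw [mul_assoc, hα, k, map_mul, map_mul, map_inv]; group
    have m : (⟨(ψ z)⁻¹ * h, H.mul_mem (H.inv_mem (le ⟨z, rfl⟩)) hh⟩ : H) ∈ generalizedFittingSubgroup H :=
      Agent.S1265.result fun x hx => Subtype.ext (by
        have := cm (c.symm ⟨x, hx⟩)
        simpa [ψ] using this)
    have m2 : ψ (c.symm ⟨_, m⟩) = (ψ z)⁻¹ * h := by simp [ψ]
    have m3 : c.symm ⟨_, m⟩ = 1 := (cen hF).le (mem_center_iff.2 fun g => hψ (by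
      rw [map_mul, map_mul, m2, cm]))
    rw [m3, map_one, eq_comm, inv_mul_eq_one] at m2
    obtain ⟨i, rfl⟩ := mem_zpowers_iff.1 hz
    exact ⟨i, by rw [← m2, map_zpow]⟩
  · obtain ⟨α, hα⟩ := au h hh
    obtain ⟨g, i, k⟩ := autB hF hy α
    refine ⟨g, i, ?_⟩
    rw [mul_assoc, hα, ← map_pow, ← k, map_mul, map_mul, map_inv]; group

end H31.E82G
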