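import Cfsg.Agent.H11.FBSpec
import Mathlib.LinearAlgebra.CrossProduct
import Mathlib.LinearAlgebra.Matrix.NonsingularInverse

/-! Tower FB, job ONc: the field of the projective plane has cube roots of unity only. -/

set_option autoImplicit false

namespace H31.FBONc

open H11.FB MulAction Subgroup Matrix

universe u v

variable {G : Type u} {Ω : Type v} [Group G] [MulAction G Ω] {F : Type} [Field F] {a b : Ω}
  {σ : Ω → Fin 3 → F}

/-- `g` acts like the matrix `M` -/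
def Acts (a b : Ω) (σ : Ω → Fin 3 → F) (g : G) (M : Matrix (Fin 3) (Fin 3) F) : Prop :=
  g • a = a ∧ g • b = b ∧ ∀ y, y ≠ a → y ≠ b → ∃ k : F, k • σ (g • y) = M *ᵥ σ y

theorem ne_of {g : G} {x y : Ω} (h : g • x = x) (hy : y ≠ x) : g • y ≠ x := fun e =>
  hy (MulAction.injective g (e.trans h.symm))

theorem Acts.mul {g h : G} {M N : Matrix (Fin 3) (Fin 3) F} (hg : Acts a b σ g M)
    (hh : Acts a b σ h N) : Acts a b σ (g * h) (M * N) := by
  refine ⟨by rw [mul_smul, hh.1, hg.1], by rw [mul_smul, hh.2.1, hg.2.1], fun y ya yb => ?_⟩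
  obtain ⟨k, e⟩ := hh.2.2 y ya yb
  obtain ⟨l, e'⟩ := hg.2.2 _ (ne_of hh.1 ya) (ne_of hh.2.1 yb)
  exact ⟨k * l, by rw [mul_smul, mul_smul g, e', ← mulVec_smul, e, mulVec_mulVec]⟩

theorem Acts.inv (h0 : ∀ x, x ≠ a → x ≠ b → σ x ≠ 0) {g : G} {M N : Matrix (Fin 3) (Fin 3) F}
    (hg : Acts a b σ g M) (hN : N * M = 1) : Acts a b σ g⁻¹ N := by
  have ha : g⁻¹ • a = a := inv_smul_eq_iff.2 hg.1.symm
  have hb : g⁻¹ • b = b := inv_smul_eq_iff.2 hg.2.1.symm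
  refine ⟨ha, hb, fun y ya yb => ?_⟩
  obtain ⟨k, e⟩ := hg.2.2 _ (ne_of ha ya) (ne_of hb yb)
  rw [smul_inv_smul] at e
  have e' : k • N *ᵥ σ y = σ (g⁻¹ • y) := by
    rw [← mulVec_smul, e, mulVec_mulVec, hN, one_mulVec]
  have k0 : k ≠ 0 := by
    rintro rfl
    exact h0 _ (ne_of ha ya) (ne_of hb yb) (by rw [← e', zero_smul])
  exact ⟨k⁻¹, by rw [← e', inv_smul_smul₀ k0]⟩

theorem Acts.fix (hi : ∀ x y, x ≠ a → x ≠ b → y ≠ a → y ≠ b → ∀ c : F, c • σ x = σ y → x = y)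
    {g : G} {M : Matrix (Fin 3) (Fin 3) F} (hg : Acts a b σ g M) {y : Ω} (ya : y ≠ a) (yb : y ≠ b)
    {m : F} (m0 : m ≠ 0) (e : M *ᵥ σ y = m • σ y) : g • y = y := by
  obtain ⟨k, e'⟩ := hg.2.2 y ya yb
  exact hi _ _ (ne_of hg.1 ya) (ne_of hg.2.1 yb) ya yb (m⁻¹ * k)
    (by rw [mul_smul, e', e, inv_smul_smul₀ m0])

theorem Acts.eq_one [FaithfulSMul G Ω]
    (hi : ∀ x y, x ≠ a → x ≠ b → y ≠ a → y ≠ b → ∀ c : F, c • σ x = σ y → x = y)
    {g : G} (hg : Acts a b σ g 1) : g = 1 :=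
  FaithfulSMul.eq_of_smul_eq_smul (α := Ω) fun y => by
    rw [one_smul]
    by_cases ya : y = a
    · rw [ya, hg.1]
    by_cases yb : y = b
    · rw [yb, hg.2.1]
    exact hg.fix hi ya yb one_ne_zero (by rw [one_mulVec, one_smul])

theorem Acts.congr {g : G} {M N : Matrix (Fin 3) (Fin 3) F} (hg : Acts a b σ g M) (e : M = N) :
    Acts a b σ g N := e ▸ hg

/-- the elementary matrices -/
def E (i j : Fin 3) (m : F) : Matrix (Fin 3) (Fin 3) F := 1 + single i j m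

theorem E02 (m : F) : E 0 2 m = !![1, 0, m; 0, 1, 0; 0, 0, 1] := by
  ext r s
  fin_cases r <;> fin_cases s <;> simp [E]

theorem E20 (m : F) : E 2 0 m = !![1, 0, 0; 0, 1, 0; m, 0, 1] := by
  ext r s
  fin_cases r <;> fin_cases s <;> simp [E]

theorem E12 (m : F) : E 1 2 m = !![1, 0, 0; 0, 1, m; 0, 0, 1] := by
  ext r s
  fin_cases r <;> fin_cases s <;> simp [E]

theorem E21 (m : F) : E 2 1 m = !![1, 0, 0; 0, 1, 0; 0, m, 1] := by
  ext r s
  fin_cases r <;> fin_cases s <;> simp [E]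

theorem E10 (m : F) : E 1 0 m = !![1, 0, 0; m, 1, 0; 0, 0, 1] := by
  ext r s
  fin_cases r <;> fin_cases s <;> simp [E]

theorem core [Finite G] [FaithfulSMul G Ω] {c d z : Ω} {K H : Subgroup G} {p : ℕ}
    (hy : Hy a b c d K H) (hK : p ∣ Nat.card K)
    (h0 : ∀ x, x ≠ a → x ≠ b → σ x ≠ 0)
    (hi : ∀ x y, x ≠ a → x ≠ b → y ≠ a → y ≠ b → ∀ c : F, c • σ x = σ y → x = y)
    (za : z ≠ a) (zb : z ≠ b) (hz : σ z = ![1, 0, 0]) (hc : σ c = ![0, 1, 0])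
    (hd : σ d = ![0, 0, 1])
    (tv : ∀ i j, i ≠ j → ∀ m : F, ∃ t : G, (∃ k, t ^ p ^ k = 1) ∧ Acts a b σ t (E i j m))
    (x : F) (x0 : x ≠ 0) : x ^ 3 = 1 := by
  obtain ⟨-, ac, ad, bc, bd, -⟩ := hy.ne
  have inL : ∀ {g : G} {l m n r s : F}, Acts a b σ g !![l, 0, 0; r, m, 0; s, 0, n] → m ≠ 0 →
      n ≠ 0 → g ∈ L4 G a b c d := fun h m0 n0 =>
    mem_L4.2 ⟨h.1, h.2.1, h.fix hi ac.symm bc.symm m0 (by
      rw [hc]; ext r; fin_cases r <;> simp [mulVec, dotProduct, Fin.sum_univ_three]),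
      h.fix hi ad.symm bd.symm n0 (by
      rw [hd]; ext r; fin_cases r <;> simp [mulVec, dotProduct, Fin.sum_univ_three])⟩
  have inK : ∀ {t : G} {r s : F}, (∃ k, t ^ p ^ k = 1) →
      Acts a b σ t !![1, 0, 0; r, 1, 0; s, 0, 1] → t ∈ K := fun ⟨k, hk⟩ ht =>
    hy.fr.mem_K (inL ht one_ne_zero one_ne_zero)
      (((hy.fr.cop.coprime_dvd_left hK).pow_left k).coprime_dvd_left
        (orderOf_dvd_of_pow_eq_one hk))
  have ne1 : ∀ {r s : F}, Acts a b σ (1 : G) !![1, 0, 0; r, 1, 0; s, 0, 1] → r = 0 ∧ s = 0 :=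
    fun h => by
      obtain ⟨k, e⟩ := h.2.2 z za zb
      rw [one_smul, hz] at e
      exact ⟨by simpa using (congrFun e 1).symm, by simpa using (congrFun e 2).symm⟩
  have inv : ∀ r s : F, !![1, 0, 0; -r, 1, 0; -s, 0, 1] * !![1, 0, 0; r, 1, 0; s, 0, 1] = 1 :=
    fun r s => by simp [one_fin_three]
  choose T hT using fun i j h m => (tv i j h m).imp fun _ h => h.2
  have h1 := ((((hT 0 2 (by decide) x).mul (hT 2 0 (by decide) (-x⁻¹))).mul
    (hT 0 2 (by decide) (x - 1))).mul (hT 2 0 (by decide) 1)).mul (hT 0 2 (by decide) (-1))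
  have h2 := ((((hT 1 2 (by decide) x).mul (hT 2 1 (by decide) (-x⁻¹))).mul
    (hT 1 2 (by decide) (x - 1))).mul (hT 2 1 (by decide) 1)).mul (hT 1 2 (by decide) (-1))
  obtain ⟨g, hg⟩ : ∃ g : G, Acts a b σ g !![x, 0, 0; 0, x, 0; 0, 0, x⁻¹ * x⁻¹] := by
    refine ⟨_, (h1.mul h2).congr ?_⟩
    rw [show !![x, 0, 0; 0, x, 0; 0, 0, x⁻¹ * x⁻¹] =
      !![x, 0, 0; 0, 1, 0; 0, 0, x⁻¹] * !![1, 0, 0; 0, x, 0; 0, 0, x⁻¹] by simp]
    congr 1
    · simp only [E02, E20, mul_fin_three]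
      ext r s
      fin_cases r <;> fin_cases s <;> simp <;> field_simp <;> ring
    · simp only [E12, E21, mul_fin_three]
      ext r s
      fin_cases r <;> fin_cases s <;> simp <;> field_simp <;> ring
  have hg' := hg.inv h0 (N := !![x⁻¹, 0, 0; 0, x⁻¹, 0; 0, 0, x * x]) (by
    simp [one_fin_three, x0, mul_assoc])
  have gK : g ∈ K := by
    obtain ⟨t, h3, ht⟩ := tv 1 0 (by decide) 1
    rw [E10] at ht
    refine hy.fr.cenK t (inK h3 ht) (fun e => one_ne_zero (ne1 (e ▸ ht)).1) g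
      (inL hg x0 (mul_ne_zero (inv_ne_zero x0) (inv_ne_zero x0))) ?_
    have h4 : g * t * g⁻¹ * t⁻¹ = 1 := Acts.eq_one hi
      ((((hg.mul ht).mul hg').mul (ht.inv h0 (inv _ _))).congr (by
        simp [one_fin_three, x0, mul_assoc]))
    rwa [mul_inv_eq_one, mul_inv_eq_iff_eq_mul] at h4
  have key : ∀ n, ∃ s ∈ K.lowerCentralSeries n,
      Acts a b σ s !![1, 0, 0; 0, 1, 0; (1 - x⁻¹ ^ 3) ^ n, 0, 1] := fun n => by
    induction n with
    | zero =>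
      obtain ⟨t, h3, ht⟩ := tv 2 0 (by decide) 1
      rw [E20] at ht
      exact ⟨t, inK h3 ht, by rwa [pow_zero]⟩
    | succ n ih =>
      obtain ⟨s, hs, ht⟩ := ih
      refine ⟨s * g * s⁻¹ * g⁻¹, commutator_mem_commutator hs gK,
        (((ht.mul hg).mul (ht.inv h0 (inv _ _))).mul hg').congr ?_⟩
      rw [pow_succ _ n]
      generalize (1 - x⁻¹ ^ 3) ^ n = m
      simp only [mul_fin_three]
      ext r s
      fin_cases r <;> fin_cases s <;> simp <;> field_simp <;> ring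
  obtain ⟨n, hn⟩ := (isNilpotent_iff_lowerCentralSeries K).1 hy.fr.nil
  obtain ⟨s, hs, ht⟩ := key n
  rw [hn, mem_bot] at hs
  have h5 := sub_eq_zero.1 (eq_zero_of_pow_eq_zero (ne1 (hs ▸ ht)).2)
  rw [inv_pow, eq_comm, inv_eq_one] at h5
  exact h5

theorem jobONc : JobONc.{u, v} := by
  intro G Ω _ _ _ _ _ _ a b c d K H p F _ _ ρ hy _ hK pm
  obtain ⟨-, ac, ad, bc, bd, cd⟩ := hy.ne
  have h1 : crossProduct (ρ c) (ρ d) ≠ 0 := crossProduct_ne_zero_iff_linearIndependent.2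
    ((LinearIndependent.pair_iff' (pm.ne0 c ac.symm bc.symm)).2 fun k e =>
      cd (pm.inj c d ac.symm bc.symm ad.symm bd.symm k e))
  obtain ⟨i, hi⟩ := Function.ne_iff.1 h1
  obtain ⟨z, za, zb, k, hk⟩ := pm.surj (Pi.single i 1) (by simp)
  let pt : Fin 3 → Ω := ![z, c, d]
  have pa : ∀ i, pt i ≠ a := fun i => by fin_cases i; exacts [za, ac.symm, ad.symm]
  have pb : ∀ i, pt i ≠ b := fun i => by fin_cases i; exacts [zb, bc.symm, bd.symm]
  let R : Matrix (Fin 3) (Fin 3) F := (of ![ρ z, ρ c, ρ d])ᵀ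
  have hR : IsUnit R.det := by
    rw [det_transpose, isUnit_iff_ne_zero]
    intro e
    have h2 : ρ z ⬝ᵥ crossProduct (ρ c) (ρ d) = 0 := (triple_product_eq_det _ _ _).trans e
    have h3 := congrArg (· ⬝ᵥ crossProduct (ρ c) (ρ d)) hk
    simp only [smul_dotProduct, h2, smul_zero, single_dotProduct, one_mul] at h3
    exact hi h3.symm
  have h2 : ∀ i, R⁻¹ *ᵥ ρ (pt i) = Pi.single i 1 := fun i => by
    have : ρ (pt i) = R *ᵥ Pi.single i 1 := by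
      rw [mulVec_single_one]
      fin_cases i <;> rfl
    rw [this, mulVec_mulVec, nonsing_inv_mul _ hR, one_mulVec]
  have h3 : ∀ v w, R⁻¹ *ᵥ v = R⁻¹ *ᵥ w → v = w := fun v w e => by
    have := congrArg (R *ᵥ ·) e
    simpa only [mulVec_mulVec, mul_nonsing_inv _ hR, one_mulVec] using this
  refine core (σ := fun y => R⁻¹ *ᵥ ρ y) (z := z) hy hK
    (fun y ya yb e => pm.ne0 y ya yb (h3 _ _ (e.trans (mulVec_zero _).symm)))
    (fun x y xa xb ya yb k e => pm.inj x y xa xb ya yb k (h3 _ _ ((mulVec_smul _ _ _).trans e)))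
    za zb ((h2 0).trans ?_) ((h2 1).trans ?_) ((h2 2).trans ?_) fun i j ij m => ?_
  iterate 3
    ext r
    fin_cases r <;> simp
  have h4 : ∀ y, (m • R⁻¹ j) ⬝ᵥ ρ y = m * (R⁻¹ *ᵥ ρ y) j := fun y => smul_dotProduct _ _ _
  obtain ⟨t, h5, h6, h7⟩ := pm.tv (pt i) (pa i) (pb i) (m • R⁻¹ j) (by
    rw [h4, h2, Pi.single_eq_of_ne ij.symm, mul_zero])
  refine ⟨t, h6, (mem_Y2.1 h5).1, (mem_Y2.1 h5).2, fun y ya yb => (h7 y ya yb).imp fun k e => ?_⟩
  rw [← mulVec_smul, e, mulVec_add, mulVec_smul, h2, h4, E, add_mulVec, one_mulVec, single_mulVec]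
  congr 1
  ext r
  by_cases hr : r = i
  · simp [hr]
  · simp [hr]

end H31.FBONc
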