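import Cfsg.Agent.H97.GaBas
import Cfsg.Agent.H11.QdSylow
import Cfsg.Agent.H57.SLCard

/-! GAG tower, slot DEF: in defining characteristic `V` has `|F|²` elements. -/

set_option autoImplicit false

namespace H31.GaDef

open Matrix MatrixGroups H97.Ga

universe v

variable {F : Type} [Field F]

/-- The upper triangular matrix with diagonal `a, a⁻¹`. -/
def bor (a : Fˣ) (b : F) : SL(2, F) := ⟨!![(a : F), b; 0, (a : F)⁻¹], by simp [Matrix.det_fin_two]⟩

theorem mem_norm_iff (g : SL(2, F)) :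
    g ∈ Subgroup.normalizer (H11.uSub F : Set SL(2, F)) ↔ g 1 0 = 0 := by
  refine ⟨fun h => ?_, H11.mem_normalizer_uSub⟩
  have h1 : g * H11.uMat 1 * g⁻¹ ∈ H11.uSub F :=
    (Subgroup.mem_normalizer_iff.1 h _).1 (H11.uMat_mem_uSub 1)
  obtain ⟨x, hx⟩ := h1
  have h2 := H11.conj_uMat_10 (1 : F) g
  have h3 : (g * H11.uMat (1 : F) * g⁻¹ : SL(2, F)) 1 0 = 0 := by
    rw [← hx]; rfl
  rw [h3] at h2
  have : g 1 0 ^ 2 = 0 := by linear_combination h2
  exact pow_eq_zero_iff (two_ne_zero) |>.1 this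

theorem card_norm [Fintype F] :
    Nat.card (Subgroup.normalizer (H11.uSub F : Set SL(2, F))) =
      (Fintype.card F - 1) * Fintype.card F := by
  classical
  have hb : Function.Bijective (fun x : Fˣ × F =>
      (⟨bor x.1 x.2, (mem_norm_iff _).2 rfl⟩ :
        Subgroup.normalizer (H11.uSub F : Set SL(2, F)))) := by
    constructor
    · rintro ⟨a, b⟩ ⟨c, d⟩ h
      have h' : bor a b = bor c d := congrArg Subtype.val h
      have h0 : (a : F) = c := congrArg (fun g : SL(2, F) => g 0 0) h'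
      have h1 : b = d := congrArg (fun g : SL(2, F) => g 0 1) h'
      exact Prod.ext (Units.ext h0) h1
    · rintro ⟨g, hg⟩
      have h10 := (mem_norm_iff g).1 hg
      have hd := H11.sl_det g
      rw [h10, mul_zero, sub_zero] at hd
      have h0 : g 0 0 ≠ 0 := left_ne_zero_of_mul_eq_one hd
      refine ⟨(Units.mk0 _ h0, g 0 1), Subtype.ext ?_⟩
      refine H11.sl_ext rfl rfl h10.symm ?_
      show (g 0 0)⁻¹ = g 1 1
      exact (eq_inv_of_mul_eq_one_right hd).symm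
  rw [← Nat.card_eq_of_bijective _ hb, Nat.card_prod, Nat.card_units, Nat.card_eq_fintype_card]

theorem card_sylow (p : ℕ) [Fact p.Prime] [CharP F p] [Fintype F] :
    Nat.card (Sylow p SL(2, F)) = Fintype.card F + 1 := by
  have h1 := Sylow.card_eq_index_normalizer (H11.sylU (F := F) p)
  have h2 := (Subgroup.normalizer (H11.uSub F : Set SL(2, F))).card_mul_index
  rw [card_norm, H57.card_sl_two] at h2
  have h3 : Nat.card (Sylow p SL(2, F)) =
      (Subgroup.normalizer (H11.uSub F : Set SL(2, F))).index := h1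
  rw [h3]
  have hq : 1 < Fintype.card F := Fintype.one_lt_card
  obtain ⟨k, hk⟩ : ∃ k, Fintype.card F = k + 1 := ⟨_, (Nat.sub_add_cancel hq.le).symm⟩
  rw [hk] at h2 hq ⊢
  have h4 : (k + 1) ^ 2 - 1 = k * (k + 2) := by
    apply Nat.sub_eq_of_eq_add; ring
  rw [h4, Nat.add_sub_cancel] at h2
  have hk0 : 0 < k * (k + 1) := Nat.mul_pos (by omega) (by omega)
  apply Nat.eq_of_mul_eq_mul_left hk0
  rw [h2]; ring

theorem arith {p f m n : ℕ} (hp : p.Prime) (hm : 0 < m)
    (h1 : p ^ n - 1 = (p ^ f + 1) * (p ^ m - 1)) (h2 : (p ^ m) ^ 2 ≤ p ^ n) :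
    p ^ n = (p ^ f) ^ 2 := by
  have hp1 := hp.one_lt
  have hw : 1 < p ^ m := Nat.one_lt_pow hm.ne' hp1
  have hn : 0 < p ^ n := by positivity
  obtain ⟨w, hw'⟩ : ∃ w, p ^ m = w + 1 := ⟨_, (Nat.sub_add_cancel hw.le).symm⟩
  have h3 : p ^ n = (p ^ f + 1) * w + 1 := by
    rw [hw', Nat.add_sub_cancel] at h1; omega
  have hw0 : 0 < w := by omega
  have hle : p ^ m ≤ p ^ f := by
    rw [hw'] at h2 ⊢
    rw [h3] at h2
    by_contra hc
    push Not at hc
    nlinarith
  have hmf : m ≤ f := (Nat.pow_le_pow_iff_right hp1).1 hle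
  have hmn : 2 * m ≤ n := by
    rw [← pow_mul, mul_comm] at h2
    exact (Nat.pow_le_pow_iff_right hp1).1 h2
  obtain ⟨a, rfl⟩ := Nat.exists_eq_add_of_le hmf
  obtain ⟨b, rfl⟩ : ∃ b, n = m + (b + 1) := ⟨n - m - 1, by omega⟩
  have h4 : p ^ (b + 1) = p ^ a * w + 1 := by
    apply Nat.eq_of_mul_eq_mul_left (show 0 < p ^ m by omega)
    rw [← pow_add, h3, pow_add, hw']; ring
  rcases Nat.eq_zero_or_pos a with rfl | ha
  · rw [h3, add_zero, hw']; ring
  · exfalso
    have h5 : p ∣ p ^ a * w + 1 := h4 ▸ dvd_pow_self p (Nat.succ_ne_zero b)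
    have h6 : p ∣ p ^ a * w := (dvd_pow_self p ha.ne').mul_right _
    exact hp.one_lt.ne' (Nat.dvd_one.1 ((Nat.dvd_add_right h6).1 h5))

theorem jobDEF : JobDef.{v} := by
  intro p hp F _ _ V _ _ _ _ ρ hSR hdvd
  obtain ⟨r, hr⟩ := CharP.exists F
  obtain ⟨f, hrp, hf⟩ := FiniteField.card F r
  have hpr : p = r := by
    rw [hf] at hdvd
    exact (Nat.prime_dvd_prime_iff_eq hp.out hrp).1 (hp.out.dvd_of_dvd_pow hdvd)
  subst hpr
  obtain ⟨⟨m, n, hm, hw, hV⟩, h1, h2, -⟩ := jobCount p ρ hSR (H11.sylU (F := F) p) _ rfl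
  rw [card_sylow p] at h1 h2
  have h3 := h2 (by have := Fintype.card_pos (α := F); omega)
  rw [hw, hV] at h1 h3
  rw [hV, hf] at *
  exact arith hp.out hm h1 h3

end H31.GaDef
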