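import Cfsg.Agent.H97.GaSpec
import Cfsg.Agent.H65.PhanAut

/-! GAG tower, slot OUT: the outer automorphisms induced on a normal `SL₂(F)`. -/

set_option autoImplicit false

namespace H31.GaOut

open Matrix H97.Ga

universe u

variable {F : Type} [Field F]

theorem cyc [Finite F] : IsCyclic (RingAut F) := by
  obtain ⟨p, hp⟩ := CharP.exists F
  have : Fact p.Prime := ⟨CharP.char_is_prime F p⟩
  let _ := ZMod.algebra F p
  let φ : (F ≃ₐ[ZMod p] F) →* RingAut F :=
    { toFun := fun σ => σ.toRingEquiv, map_one' := rfl, map_mul' := fun _ _ => rfl }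
  refine isCyclic_of_surjective φ fun σ => ⟨AlgEquiv.ofRingEquiv (f := σ) (fun x =>
    RingHom.congr_fun (RingHom.ext_zmod ((σ : F →+* F).comp (algebraMap (ZMod p) F))
      (algebraMap (ZMod p) F)) x), rfl⟩

theorem triv [Fintype F] (h : (Fintype.card F).Prime) (σ : RingAut F) : σ = 1 := by
  haveI : Fact (Fintype.card F).Prime := ⟨h⟩
  let e := ZMod.ringEquivOfPrime F h rfl
  have : e.trans σ = e := Subsingleton.elim _ _
  ext x
  obtain ⟨y, rfl⟩ := e.surjective x
  exact congrArg (fun f : ZMod (Fintype.card F) ≃+* F => f y) this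

/-- A matrix with prescribed trace. -/
def mt (a : F) : SL2 F := ⟨!![a, -1; 1, 0], by simp [Matrix.det_fin_two]⟩

theorem trace_mt (a : F) : (mt a).1.trace = a := by simp [mt, Matrix.trace_fin_two]

theorem trace_of {x y : Matrix (Fin 2) (Fin 2) F} {g : GL (Fin 2) F} (h : x * g.1 = g.1 * y) :
    x.trace = y.trace := by
  have : x = g.1 * y * (g⁻¹).1 := by
    rw [← h, Matrix.mul_assoc, ← Units.val_mul, mul_inv_cancel, Units.val_one, Matrix.mul_one]
  rw [this, Matrix.trace_mul_comm, ← Matrix.mul_assoc, ← Units.val_mul, inv_mul_cancel,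
    Units.val_one, Matrix.one_mul]

variable [Finite F]

/-- The field automorphism of an automorphism of `SL₂`. -/
noncomputable def fld (α : MulAut (SL2 F)) : RingAut F :=
  (H65.Phan.sl_aut_two α).choose_spec.choose

theorem fld_spec (α : MulAut (SL2 F)) :
    ∃ g : GL (Fin 2) F, ∀ x, (α x).1 * g.1 = g.1 * x.1.map (fld α) :=
  ⟨_, (H65.Phan.sl_aut_two α).choose_spec.choose_spec⟩

theorem trace_fld (α : MulAut (SL2 F)) (x : SL2 F) : (α x).1.trace = fld α x.1.trace := by
  obtain ⟨g, hg⟩ := fld_spec α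
  rw [trace_of (hg x)]
  simp [Matrix.trace_fin_two]

theorem fld_eq (α : MulAut (SL2 F)) (a : F) : fld α a = (α (mt a)).1.trace := by
  rw [trace_fld, trace_mt]

/-- The field part as a homomorphism. -/
noncomputable def theta : MulAut (SL2 F) →* RingAut F := MonoidHom.mk' fld fun α β => by
  ext a
  rw [fld_eq, MulAut.mul_apply, trace_fld, ← fld_eq]
  rfl

theorem diag_of {α : MulAut (SL2 F)} (h : theta α = 1) :
    ∃ g : GL (Fin 2) F, ∀ x, (α x).1 * g.1 = g.1 * x.1 := by
  obtain ⟨g, hg⟩ := fld_spec α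
  refine ⟨g, fun x => ?_⟩
  have h' : fld α = 1 := h
  rw [hg x, h']
  rfl

theorem theta_of {α : MulAut (SL2 F)} (s : SL2 F) (h : ∀ x, α x = s * x * s⁻¹) : theta α = 1 := by
  ext a
  show fld α a = a
  rw [fld_eq, h]
  have : (s * mt a * s⁻¹).1 * (SpecialLinearGroup.toGL s).1 =
      (SpecialLinearGroup.toGL s).1 * (mt a).1 := by
    show (s * mt a * s⁻¹ * s).1 = (s * mt a).1
    rw [inv_mul_cancel_right]
  rw [trace_of this, trace_mt]

omit [Finite F] in
theorem inner_of {α : MulAut (SL2 F)} {g : GL (Fin 2) F} (h : ∀ x, (α x).1 * g.1 = g.1 * x.1)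
    (hs : IsSquare g.1.det) : ∃ s : SL2 F, ∀ x, α x = s * x * s⁻¹ := by
  obtain ⟨c, hc⟩ := hs
  have hd : g.1.det ≠ 0 := GeneralLinearGroup.det_ne_zero g
  have hc0 : c ≠ 0 := fun h0 => hd (by rw [hc, h0, mul_zero])
  let s : SL2 F := ⟨c⁻¹ • g.1, by
    rw [Matrix.det_smul, hc, Fintype.card_fin]; field_simp⟩
  refine ⟨s, fun x => ?_⟩
  rw [eq_mul_inv_iff_mul_eq]
  apply Subtype.ext
  show (α x).1 * (c⁻¹ • g.1) = (c⁻¹ • g.1) * x.1
  rw [Matrix.mul_smul, Matrix.smul_mul, h]

theorem sq_mul {a b : F} (ha : ¬ IsSquare a) (hb : ¬ IsSquare b) : IsSquare (a * b) := by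
  classical
  letI := Fintype.ofFinite F
  have h0 : a * b ≠ 0 := mul_ne_zero (fun h => ha (h ▸ IsSquare.zero))
    (fun h => hb (h ▸ IsSquare.zero))
  rw [← quadraticChar_one_iff_isSquare h0, map_mul, quadraticChar_neg_one_iff_not_isSquare.2 ha,
    quadraticChar_neg_one_iff_not_isSquare.2 hb]
  norm_num

theorem jobOUT : JobOut.{u} := by
  intro H _ _ F _ _ L _ ⟨e⟩
  let φ : H →* MulAut (SL2 F) := (MulAut.congr e).toMonoidHom.comp MulAut.conjNormal
  have hφ : ∀ (h : H) (y : L), ((e.symm (φ h (e y)) : L) : H) = h * y * h⁻¹ := fun h y => by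
    show ((e.symm (e (MulAut.conjNormal h (e.symm (e y)))) : L) : H) = _
    rw [e.symm_apply_apply, e.symm_apply_apply, MulAut.conjNormal_apply]
  let θ : H →* RingAut F := theta.comp φ
  have hin : ∀ h : H, (∃ s : SL2 F, ∀ x, φ h x = s * x * s⁻¹) →
      h ∈ L ⊔ Subgroup.centralizer (L : Set H) := by
    rintro h ⟨s, hs⟩
    have hl : ((e.symm s : L) : H) ∈ L := (e.symm s).2
    have hc : ((e.symm s : L) : H)⁻¹ * h ∈ Subgroup.centralizer (L : Set H) := by
      intro y hy
      have h1 := hφ h ⟨y, hy⟩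
      rw [hs, map_mul, map_mul, map_inv, e.symm_apply_apply] at h1
      simp only [Subgroup.coe_mul, Subgroup.coe_inv] at h1
      calc y * (((e.symm s : L) : H)⁻¹ * h)
          = ((e.symm s : L) : H)⁻¹ * ((e.symm s : L) * y * ((e.symm s : L) : H)⁻¹) * h := by group
        _ = _ := by rw [h1]; group
    have := Subgroup.mul_mem_sup hl hc
    rwa [mul_inv_cancel_left] at this
  refine ⟨θ.ker, inferInstance, sup_le (fun l hl => ?_) (fun c hc => ?_), ?_, ?_, fun hp => ?_⟩
  · refine theta_of (e ⟨l, hl⟩) fun x => ?_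
    obtain ⟨y, rfl⟩ := e.surjective x
    apply e.symm.injective
    apply Subtype.ext
    rw [hφ, map_mul, map_mul, map_inv, e.symm_apply_apply, e.symm_apply_apply]
    rfl
  · refine theta_of 1 fun x => ?_
    obtain ⟨y, rfl⟩ := e.surjective x
    apply e.symm.injective
    apply Subtype.ext
    rw [hφ, one_mul, inv_one, mul_one, e.symm_apply_apply, ← hc y y.2, mul_inv_cancel_right]
  · haveI := cyc (F := F)
    obtain ⟨⟨_, h, rfl⟩, hh⟩ := IsCyclic.exists_generator (α := θ.range)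
    refine ⟨h, eq_top_iff.2 fun x _ => ?_⟩
    obtain ⟨n, hn⟩ := Subgroup.mem_zpowers_iff.1 (hh ⟨θ x, x, rfl⟩)
    have hn' : θ h ^ n = θ x := congrArg Subtype.val hn
    have h1 : x * (h ^ n)⁻¹ ∈ θ.ker := by
      rw [MonoidHom.mem_ker, map_mul, map_inv, map_zpow, hn', mul_inv_cancel]
    have := Subgroup.mul_mem_sup h1 (Subgroup.zpow_mem_zpowers h n)
    rwa [inv_mul_cancel_right] at this
  · rw [Subgroup.relIndex_dvd_two_iff]
    by_cases hK : ∀ a ∈ θ.ker, a ∈ L ⊔ Subgroup.centralizer (L : Set H)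
    · exact ⟨1, one_mem _, fun b hb => Or.inr (hK b hb)⟩
    push Not at hK
    obtain ⟨a, ha, ha'⟩ := hK
    refine ⟨a, ha, fun b hb => ?_⟩
    by_cases hb' : b ∈ L ⊔ Subgroup.centralizer (L : Set H)
    · exact Or.inr hb'
    left
    obtain ⟨g, hg⟩ := diag_of (α := φ a) ha
    obtain ⟨k, hk⟩ := diag_of (α := φ b) hb
    have h1 : ¬ IsSquare g.1.det := fun h => ha' (hin a (inner_of hg h))
    have h2 : ¬ IsSquare k.1.det := fun h => hb' (hin b (inner_of hk h))
    refine hin _ (inner_of (g := k * g) (fun x => ?_) ?_)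
    · rw [map_mul, MulAut.mul_apply, Units.val_mul, ← Matrix.mul_assoc, hk, Matrix.mul_assoc, hg,
        Matrix.mul_assoc]
    · rw [Units.val_mul, Matrix.det_mul]
      exact sq_mul h2 h1
  · exact eq_top_iff.2 fun x _ => triv hp _

end H31.GaOut
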