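import Cfsg.Agent.H97.GaSpec
import Cfsg.Agent.H61.SL2Lift
import Cfsg.Agent.H11.SL2Act
import Cfsg.Agent.H57.SLCard

/-! GAG tower, slot SYL3: Sylow 3-subgroups of `SL₂(F)` in characteristic other than 2, 3. -/

set_option autoImplicit false

namespace H31.GaSyl3

open Matrix MatrixGroups H97.Ga

variable {F : Type} [Field F]

theorem ent {y x : SL(2, F)} (h : y * x = x * y) :
    y 0 1 * x 1 0 = x 0 1 * y 1 0 ∧ y 0 1 * (x 0 0 - x 1 1) = x 0 1 * (y 0 0 - y 1 1) ∧
      y 1 0 * (x 0 0 - x 1 1) = x 1 0 * (y 0 0 - y 1 1) := by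
  have h00 : (y * x) 0 0 = (x * y) 0 0 := by rw [h]
  have h01 : (y * x) 0 1 = (x * y) 0 1 := by rw [h]
  have h10 : (y * x) 1 0 = (x * y) 1 0 := by rw [h]
  rw [H11.sl_mul_apply, H11.sl_mul_apply] at h00 h01 h10
  exact ⟨by linear_combination h00, by linear_combination -h01, by linear_combination h10⟩

theorem comm_of_ent {y z : SL(2, F)} (h1 : y 0 1 * z 1 0 = z 0 1 * y 1 0)
    (h2 : y 0 1 * (z 0 0 - z 1 1) = z 0 1 * (y 0 0 - y 1 1))
    (h3 : y 1 0 * (z 0 0 - z 1 1) = z 1 0 * (y 0 0 - y 1 1)) : y * z = z * y := by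
  apply H11.sl_ext <;> rw [H11.sl_mul_apply, H11.sl_mul_apply]
  · linear_combination h1
  · linear_combination -h2
  · linear_combination h3
  · linear_combination -h1

/-- The centraliser of an element with `x² ≠ 1` is commutative. -/
theorem comm_of {x y z : SL(2, F)} (hx : x * x ≠ 1) (hy : y * x = x * y) (hz : z * x = x * z) :
    y * z = z * y := by
  obtain ⟨a1, a2, a3⟩ := ent hy
  obtain ⟨b1, b2, b3⟩ := ent hz
  by_cases h01 : x 0 1 = 0
  · by_cases h10 : x 1 0 = 0
    · by_cases hd : x 0 0 - x 1 1 = 0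
      · exfalso
        apply hx
        have hdet := H11.sl_det x
        apply H11.sl_ext <;> rw [H11.sl_mul_apply] <;> simp only [h01, h10] at hdet ⊢
        · show _ = (1 : F)
          linear_combination hdet + x 0 0 * hd
        · show _ = (0 : F)
          ring
        · show _ = (0 : F)
          ring
        · show _ = (1 : F)
          linear_combination hdet - x 1 1 * hd
      · apply comm_of_ent <;> apply mul_left_cancel₀ hd
        · linear_combination z 1 0 * a2 - z 0 1 * a3 - (y 0 0 - y 1 1) * b1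
        · linear_combination (z 0 0 - z 1 1) * a2 - (y 0 0 - y 1 1) * b2
        · linear_combination (z 0 0 - z 1 1) * a3 - (y 0 0 - y 1 1) * b3
    · apply comm_of_ent <;> apply mul_left_cancel₀ h10
      · linear_combination z 1 0 * a1 - y 1 0 * b1
      · linear_combination (z 0 0 - z 1 1) * a1 + z 0 1 * a3 - y 1 0 * b2
      · linear_combination z 1 0 * a3 - y 1 0 * b3
  · apply comm_of_ent <;> apply mul_left_cancel₀ h01
    · linear_combination z 0 1 * a1 - y 0 1 * b1
    · linear_combination z 0 1 * a2 - y 0 1 * b2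
    · linear_combination -(z 0 0 - z 1 1) * a1 + z 1 0 * a2 - y 0 1 * b3

open scoped H61 in
theorem cyc [Finite F] (h3 : (3 : F) ≠ 0) (P : Subgroup SL(2, F)) (hP : IsPGroup 3 P) :
    IsCyclic P := by
  obtain ⟨p, hp⟩ := CharP.exists F
  haveI : Fact p.Prime := ⟨CharP.char_is_prime F p⟩
  have hne : 3 ≠ p := fun h => h3 (by
    have := CharP.cast_eq_zero F p
    rw [← h] at this
    exact_mod_cast this)
  have h1 : IsCyclic (P.map (H61.proj F)) :=
    (H61.hur_psl F p).isCyclic_of_isPGroup Nat.prime_three hne (by norm_num) (hP.map _)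
  haveI := H61.isCyclic_comap_proj _ h1
  exact Subgroup.isCyclic_of_le (Subgroup.le_comap_map (H61.proj F) P)

theorem ti [Finite F] (h3 : (3 : F) ≠ 0) (P Q : Sylow 3 SL(2, F))
    (h : (P : Subgroup SL(2, F)) ⊓ Q ≠ ⊥) : P = Q := by
  obtain ⟨⟨x, hxP, hxQ⟩, hx1⟩ := Subgroup.ne_bot_iff_exists_ne_one.1 h
  have hx1' : x ≠ 1 := fun e => hx1 (Subtype.ext e)
  have hxx : x * x ≠ 1 := fun e => by
    obtain ⟨k, hk⟩ := P.isPGroup' ⟨x, hxP⟩
    have hk' : x ^ 3 ^ k = 1 := congrArg Subtype.val hk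
    have h2 : x ^ 2 = 1 := by rw [sq, e]
    have := pow_gcd_eq_one.2 ⟨h2, hk'⟩
    rw [Nat.Coprime.gcd_eq_one (Nat.Coprime.pow_right k (by norm_num)), pow_one] at this
    exact hx1' this
  have hc : ∀ (R : Sylow 3 SL(2, F)), x ∈ (R : Subgroup SL(2, F)) →
      ∀ y ∈ (R : Subgroup SL(2, F)), y * x = x * y := fun R hR y hy => by
    haveI := cyc h3 _ R.isPGroup'
    exact congrArg Subtype.val
      (IsCyclic.commGroup.mul_comm (⟨y, hy⟩ : (R : Subgroup SL(2, F))) ⟨x, hR⟩)
  have hn : (P : Subgroup SL(2, F)) ≤ Subgroup.normalizer ((Q : Subgroup SL(2, F)) : Set _) := by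
    refine le_trans (b := Subgroup.centralizer ((Q : Subgroup SL(2, F)) : Set _))
      (fun y hy z hz => ?_) (Subgroup.centralizer_le_normalizer _)
    exact comm_of hxx (hc Q hxQ z hz) (hc P hxP y hy)
  have hs := IsPGroup.to_sup_of_normal_right' P.isPGroup' Q.isPGroup' hn
  have h1 := P.is_maximal' hs le_sup_left
  have h2 := Q.is_maximal' hs le_sup_right
  exact Sylow.ext (h1.symm.trans h2)

theorem order_iff (h3 : (3 : F) ≠ 0) (x : SL(2, F)) : orderOf x = 3 ↔ x 0 0 + x 1 1 = -1 := by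
  have hdet := H11.sl_det x
  have hp : x ^ 3 = x * (x * x) := by rw [pow_succ', sq]
  constructor
  · intro h
    have h1 : x ≠ 1 := fun e => by rw [e, orderOf_one] at h; omega
    have h2 : x * (x * x) = 1 := by rw [← hp, ← h, pow_orderOf_eq_one]
    have h2' : x * x = x⁻¹ := eq_inv_of_mul_eq_one_right h2
    have h00 : (x * x) 0 0 = x⁻¹ 0 0 := by rw [h2']
    have h01 : (x * x) 0 1 = x⁻¹ 0 1 := by rw [h2']
    have h10 : (x * x) 1 0 = x⁻¹ 1 0 := by rw [h2']
    have h11 : (x * x) 1 1 = x⁻¹ 1 1 := by rw [h2']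
    rw [H11.sl_mul_apply] at h00 h01 h10 h11
    rw [H11.sl_inv_00] at h00
    rw [H11.sl_inv_01] at h01
    rw [H11.sl_inv_10] at h10
    rw [H11.sl_inv_11] at h11
    by_contra hc
    have ht : x 0 0 + x 1 1 + 1 ≠ 0 := fun e => hc (by linear_combination e)
    apply h1
    have e01 : x 0 1 = 0 := by
      apply mul_left_cancel₀ ht; linear_combination h01
    have e10 : x 1 0 = 0 := by
      apply mul_left_cancel₀ ht; linear_combination h10
    have e00 : x 0 0 = 1 := by
      apply mul_left_cancel₀ ht; linear_combination h00 + hdet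
    have e11 : x 1 1 = 1 := by
      apply mul_left_cancel₀ ht; linear_combination h11 + hdet
    exact H11.sl_ext e00 e01 e10 e11
  · intro h
    haveI : Fact (Nat.Prime 3) := ⟨Nat.prime_three⟩
    refine orderOf_eq_prime ?_ fun e => h3 ?_
    · have h2 : x * x = x⁻¹ := by
        apply H11.sl_ext <;> rw [H11.sl_mul_apply]
        · rw [H11.sl_inv_00]; linear_combination (x 0 0 - 1) * h - hdet
        · rw [H11.sl_inv_01]; linear_combination x 0 1 * h
        · rw [H11.sl_inv_10]; linear_combination x 1 0 * h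
        · rw [H11.sl_inv_11]; linear_combination (x 1 1 - 1) * h - hdet
      rw [hp, h2, mul_inv_cancel]
    · rw [e] at h
      have h' : (1 : F) + 1 = -1 := h
      linear_combination h'

/-- Matrices of trace `-1` with nonzero lower left entry. -/
def mA (a : F) (c : Fˣ) : SL(2, F) :=
  ⟨!![a, -(a ^ 2 + a + 1) / c; c, -1 - a], by
    rw [Matrix.det_fin_two_of]; field_simp; ring⟩

/-- Upper triangular matrices of trace `-1`. -/
def mB (a : {a : F // a ^ 2 + a + 1 = 0}) (b : F) : SL(2, F) :=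
  ⟨!![a.1, b; 0, -1 - a.1], by rw [Matrix.det_fin_two_of]; linear_combination -a.2⟩

theorem card_tr [Fintype F] : Nat.card {x : SL(2, F) // x 0 0 + x 1 1 = -1} =
    Fintype.card F * (Fintype.card F - 1) +
      Nat.card {a : F // a ^ 2 + a + 1 = 0} * Fintype.card F := by
  let f : (F × Fˣ) ⊕ ({a : F // a ^ 2 + a + 1 = 0} × F) → {x : SL(2, F) // x 0 0 + x 1 1 = -1} :=
    Sum.elim (fun y => ⟨mA y.1 y.2, by show y.1 + (-1 - y.1) = -1; ring⟩)
      (fun y => ⟨mB y.1 y.2, by show y.1.1 + (-1 - y.1.1) = -1; ring⟩)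
  have hb : Function.Bijective f := by
    constructor
    · rintro (⟨a, c⟩ | ⟨a, b⟩) (⟨a', c'⟩ | ⟨a', b'⟩) h
      · have h' : mA a c = mA a' c' := congrArg Subtype.val h
        have h0 : a = a' := congrArg (fun g : SL(2, F) => g 0 0) h'
        have h1 : (c : F) = c' := congrArg (fun g : SL(2, F) => g 1 0) h'
        rw [h0, Units.ext h1]
      · have h' : mA a c = mB a' b' := congrArg Subtype.val h
        have h1 : (c : F) = 0 := congrArg (fun g : SL(2, F) => g 1 0) h'
        exact absurd h1 c.ne_zero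
      · have h' : mB a b = mA a' c' := congrArg Subtype.val h
        have h1 : 0 = (c' : F) := congrArg (fun g : SL(2, F) => g 1 0) h'
        exact absurd h1.symm c'.ne_zero
      · have h' : mB a b = mB a' b' := congrArg Subtype.val h
        have h0 : a.1 = a'.1 := congrArg (fun g : SL(2, F) => g 0 0) h'
        have h1 : b = b' := congrArg (fun g : SL(2, F) => g 0 1) h'
        rw [Subtype.ext h0, h1]
    · rintro ⟨x, hx⟩
      have hdet := H11.sl_det x
      by_cases h : x 1 0 = 0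
      · refine ⟨Sum.inr (⟨x 0 0, ?_⟩, x 0 1), Subtype.ext (H11.sl_ext rfl rfl h.symm ?_)⟩
        · rw [h] at hdet; linear_combination x 0 0 * hx - hdet
        · show -1 - x 0 0 = x 1 1
          linear_combination -hx
      · refine ⟨Sum.inl (x 0 0, Units.mk0 _ h), Subtype.ext (H11.sl_ext rfl ?_ rfl ?_)⟩
        · show -(x 0 0 ^ 2 + x 0 0 + 1) / x 1 0 = x 0 1
          field_simp
          linear_combination -x 0 0 * hx + hdet
        · show -1 - x 0 0 = x 1 1
          linear_combination -hx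
  rw [← Nat.card_eq_of_bijective _ hb, Nat.card_sum, Nat.card_prod, Nat.card_prod, Nat.card_units,
    Nat.card_eq_fintype_card (α := F)]

theorem roots_two [Fintype F] (h3 : (3 : F) ≠ 0) (h : Fintype.card F % 3 = 2) :
    Nat.card {a : F // a ^ 2 + a + 1 = 0} = 0 := by
  rw [Nat.card_eq_zero]
  refine Or.inl ⟨fun ⟨a, ha⟩ => h3 ?_⟩
  have h1 : a ^ 3 = 1 := by linear_combination (a - 1) * ha
  have h2 : a ^ Fintype.card F = a := FiniteField.pow_card a
  rw [← Nat.div_add_mod (Fintype.card F) 3, h, pow_add, pow_mul, h1, one_pow, one_mul] at h2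
  have h4 : a = 1 := by linear_combination h1 - (a + 1) * h2
  rw [h4] at ha
  linear_combination ha

theorem roots_one [Fintype F] (h3 : (3 : F) ≠ 0) (h : Fintype.card F % 3 = 1) :
    Nat.card {a : F // a ^ 2 + a + 1 = 0} = 2 := by
  haveI : Fact (Nat.Prime 3) := ⟨Nat.prime_three⟩
  obtain ⟨w, hw⟩ := exists_prime_orderOf_dvd_card' (G := Fˣ) 3 (by
    rw [Nat.card_units, Nat.card_eq_fintype_card]; omega)
  have h1 : (w : F) ^ 3 = 1 := by
    rw [← Units.val_pow_eq_pow_val, ← hw, pow_orderOf_eq_one, Units.val_one]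
  have h2 : (w : F) - 1 ≠ 0 := fun e => by
    have : w = 1 := Units.ext (by rw [Units.val_one]; linear_combination e)
    rw [this, orderOf_one] at hw; omega
  have h4 : (w : F) ^ 2 + w + 1 = 0 := by
    apply mul_left_cancel₀ h2; linear_combination h1
  rw [Nat.card_eq_two_iff]
  refine ⟨⟨w, h4⟩, ⟨-1 - w, by linear_combination h4⟩, fun e => h3 ?_, ?_⟩
  · have e' : (w : F) = -1 - w := congrArg Subtype.val e
    linear_combination 4 * h4 - (2 * w + 1) * e'
  · refine Set.eq_univ_of_forall fun ⟨a, ha⟩ => ?_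
    have : (a - w) * (a - (-1 - w)) = 0 := by linear_combination ha - h4
    rcases mul_eq_zero.1 this with e | e
    · exact Or.inl (Subtype.ext (sub_eq_zero.1 e))
    · exact Or.inr (Subtype.ext (sub_eq_zero.1 e))

theorem card_ord {G : Type*} [Group G] [Finite G] (hd : 3 ∣ Nat.card G)
    (hc : ∀ P : Sylow 3 G, IsCyclic (P : Subgroup G))
    (ht : ∀ P Q : Sylow 3 G, (P : Subgroup G) ⊓ Q ≠ ⊥ → P = Q) :
    Nat.card {x : G // orderOf x = 3} = Nat.card (Sylow 3 G) * 2 := by
  classical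
  haveI : Fact (Nat.Prime 3) := ⟨Nat.prime_three⟩
  letI := Fintype.ofFinite (Sylow 3 G)
  let f : (Σ P : Sylow 3 G, {x : (P : Subgroup G) // orderOf x = 3}) → {x : G // orderOf x = 3} :=
    fun y => ⟨y.2.1.1, by rw [Subgroup.orderOf_coe]; exact y.2.2⟩
  have hb : Function.Bijective f := by
    constructor
    · rintro ⟨P, ⟨x, hx⟩, hx3⟩ ⟨Q, ⟨y, hy⟩, hy3⟩ h
      have h' : x = y := congrArg Subtype.val h
      subst h'
      have : P = Q := ht P Q (Subgroup.ne_bot_iff_exists_ne_one.2 ⟨⟨x, hx, hy⟩, fun e => by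
        have e' : x = 1 := congrArg Subtype.val e
        subst e'
        have : (⟨1, hx⟩ : (P : Subgroup G)) = 1 := rfl
        rw [this, orderOf_one] at hx3; omega⟩)
      subst this
      rfl
    · rintro ⟨x, hx⟩
      have hp : IsPGroup 3 (Subgroup.zpowers x) :=
        IsPGroup.of_card (n := 1) (by rw [Nat.card_zpowers, hx, pow_one])
      obtain ⟨P, hP⟩ := hp.exists_le_sylow
      exact ⟨⟨P, ⟨x, hP (Subgroup.mem_zpowers x)⟩, by rw [← Subgroup.orderOf_coe]; exact hx⟩, rfl⟩
  rw [← Nat.card_eq_of_bijective _ hb, Nat.card_sigma]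
  have : ∀ P : Sylow 3 G, Nat.card {x : (P : Subgroup G) // orderOf x = 3} = 2 := fun P => by
    haveI := hc P
    letI := Fintype.ofFinite (P : Subgroup G)
    have h1 := IsCyclic.card_orderOf_eq_totient (α := (P : Subgroup G)) (d := 3) (by
      rw [← Nat.card_eq_fintype_card]; exact P.dvd_card_of_dvd_card hd)
    rw [Nat.card_eq_fintype_card, Fintype.card_subtype, h1]
    decide
  simp [this]

theorem jobSYL3 : JobSyl3 := by
  intro F _ _ _ hq P
  haveI : Fact (Nat.Prime 3) := ⟨Nat.prime_three⟩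
  have h3 : (3 : F) ≠ 0 := fun h => hq (by
    have : CharP F 3 := (CharP.charP_iff_prime_eq_zero Nat.prime_three).2 (by exact_mod_cast h)
    obtain ⟨n, -, hn⟩ := FiniteField.card F 3
    rw [hn]; exact dvd_pow_self 3 n.ne_zero)
  have hq1 : 1 < Fintype.card F := Fintype.one_lt_card
  obtain ⟨k, hk⟩ : ∃ k, Fintype.card F = k + 1 := ⟨_, (Nat.sub_add_cancel hq1.le).symm⟩
  have hG : Nat.card (SL2 F) = (k + 1) * (k * (k + 2)) := by
    rw [H57.card_sl_two, hk]
    congr 1
    apply Nat.sub_eq_of_eq_add; ring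
  have hd : 3 ∣ Nat.card (SL2 F) := by
    rw [hG]
    refine Dvd.dvd.mul_left ?_ _
    rw [hk] at hq
    rcases (by omega : 3 ∣ k ∨ 3 ∣ k + 2) with h | h
    · exact h.mul_right _
    · exact h.mul_left _
  have h1 := card_ord hd (fun P => cyc h3 _ P.isPGroup') (ti h3)
  rw [Nat.card_congr (Equiv.subtypeEquivRight (order_iff h3)), card_tr,
    Sylow.card_eq_index_normalizer P] at h1
  have h2 := (Subgroup.normalizer ((P : Subgroup (SL2 F)) : Set (SL2 F))).card_mul_index
  rw [hG] at h2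
  have hk0 : 0 < k := by omega
  refine ⟨cyc h3 _ P.isPGroup', ti h3 P, fun h => ?_, fun h => ?_⟩
  · rw [roots_one h3 h, hk, Nat.add_sub_cancel] at h1
    rw [hk, Nat.add_sub_cancel]
    apply Nat.eq_of_mul_eq_mul_right (show 0 < (k + 1) * k + 2 * (k + 1) by positivity)
    calc _ = _ * (_ * 2) := by rw [h1]
      _ = _ := by rw [← mul_assoc]; erw [h2]; ring
  · rw [roots_two h3 h, hk, Nat.add_sub_cancel] at h1
    rw [hk]
    apply Nat.eq_of_mul_eq_mul_right (show 0 < (k + 1) * k + 0 * (k + 1) by positivity)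
    calc _ = _ * (_ * 2) := by rw [h1]
      _ = _ := by rw [← mul_assoc]; erw [h2]; ring

end H31.GaSyl3
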