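/- Tower KP, slot GEO: Jordan subgroups of a point stabiliser. -/
import Cfsg.Agent.H2.KpSpec
import Cfsg.Agent.H30.LnTop
import Cfsg.Agent.H5.LnJor

set_option autoImplicit false

namespace H31.KpGeo

open Equiv MulAction H2.Ln H2.Kp

theorem jobJL : JL := by
  intro α _ _ M T hT h1 h2 K hK tr
  obtain ⟨-, h3, h4⟩ := H30.LnTop.jobTop2 α M T h1
  by_contra hc
  have e : sp K = sp (fx M T) := Finset.eq_of_subset_of_card_le
    (fun a ha => (mem_sp.1 ha).elim fun x hx => mem_sp.2 ⟨x, hK hx.1, hx.2⟩) (by omega)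
  refine hc (e ▸ h4 hT h2 fun a ha b hb => ?_)
  obtain ⟨x, hx, h⟩ := tr a (e ▸ ha) b (e ▸ hb)
  exact ⟨x, hK hx, h⟩

theorem jobGeo : JL → GeoA → GeoB → GeoC → Geo := by
  intro jl ga gb gc α _ _ M hp hA T h1 hT h2 h3
  by_cases hK : ∃ K ≤ fx M T, K ≠ ⊥ ∧ Tr K
  swap
  · exact ⟨0, fun _ => rfl, fun K a b c => absurd ⟨K, a, b, c⟩ hK, fun h => absurd h (by decide)⟩
  have h4 : 1 < T.card := by
    obtain ⟨K, a, b, c⟩ := hK
    exact (H5.LnJor.jobJor α M hp hA _ h1 h3 K (a.trans inf_le_left) b c (jl α M T hT h2 h3 K a c)).1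
  obtain ⟨a, ha, b, hb, ab⟩ := Finset.one_lt_card.1 h4
  obtain ⟨U, aU, bU, rfl⟩ : ∃ U : Finset α, a ∉ U ∧ b ∉ U ∧ T = insert a (insert b U) :=
    ⟨(T.erase a).erase b, by simp, by simp, by
      rw [Finset.insert_erase (Finset.mem_erase.2 ⟨ab.symm, hb⟩), Finset.insert_erase ha]⟩
  have hc : (insert a (insert b U)).card = U.card + 2 := by
    rw [Finset.card_insert_of_notMem (by simp [ab, aU]), Finset.card_insert_of_notMem bU]
  rw [hc] at hT h2 h3 ⊢
  obtain ⟨l, L, hL, hD⟩ := ga α M hp hA U a b aU bU ab hT h2 h3 hK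
  have hU : Uᶜ.card = Fintype.card α - (U.card + 2) + 2 := by rw [Finset.card_compl]; omega
  have e : fx (fx M U) {a, b} = fx M (insert a (insert b U)) := by
    ext x; simp only [mem_fx, Finset.mem_insert, Finset.mem_singleton, forall_eq_or_imp, forall_eq]; tauto
  refine ⟨l, fun h => by omega, e ▸ gb α _ _ l _ L a b hL hU (by simpa) (by simpa) ab hD, ?_⟩
  rintro rfl x hx h
  have := gc α _ _ L hL x ((e ▸ hx : x ∈ fx (fx M U) {a, b})).1 h
  omega

end H31.KpGeo
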