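import Cfsg.Agent.H19.ReflCl
import Cfsg.Prelude.Def_Classical

/-! O7 (blueprints/O7.md), chapter A: irreducible reflection groups in dimension seven. -/

set_option autoImplicit false
set_option linter.unusedVariables false

namespace H31.O7

open H56 QuadraticMap Module

universe u

section defs

variable {K : Type u} [Field K] {V : Type u} [AddCommGroup V] [Module K V] (Q : QuadraticForm K V)

/-- The two-cycle invariant. -/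
def cc (u v : V) : K := polar Q u v ^ 2 / (Q u * Q v)

/-- The three-cycle invariant. -/
def tau (u v w : V) : K := polar Q u v * polar Q v w * polar Q w u / (Q u * Q v * Q w)

/-- The normalised Gram determinant. -/
def dt (u v w : V) : K := 4 - cc Q u v - cc Q v w - cc Q u w + tau Q u v w

/-- Parallel vectors. -/
def Par (K : Type u) [Field K] [Module K V] (u v : V) : Prop := ∃ a : K, v = a • u

/-- `Ψ` is irreducible. -/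
def Irr (Ψ : Set V) : Prop :=
  ∀ U : Submodule K V, (∀ v ∈ Ψ, v ∈ U ∨ v ∈ perp Q U) → U = ⊥ ∨ U = ⊤

/-- The reflections in `Φ` preserve `Ψ`. -/
def Inv (Φ Ψ : Set V) : Prop := ∀ u ∈ Φ, ∀ v ∈ Ψ, refl Q u v ∈ Ψ

/-- The set of all roots of a reflection group. -/
structure RS (Φ : Set V) : Prop where
  two : (2 : K) ≠ 0
  nd : Q.polarBilin.Nondegenerate
  dim : finrank K V = 7
  ne : ∀ v ∈ Φ, Q v ≠ 0
  full : ∀ v, Q v ≠ 0 → refl Q v ∈ reflGroup Q Φ → v ∈ Φ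
  nonempty : Φ.Nonempty
  irr : ∀ Ψ ⊆ Φ, Ψ.Nonempty → Inv Q Φ Ψ → Irr Q Ψ

/-- A full `k`-form: all vectors of norm in `N k²` are roots. -/
structure Fm (Φ : Set V) (k : Subfield K) (N : K) (Λ : Submodule k V) : Prop where
  ne : N ≠ 0
  val : ∀ x ∈ Λ, Q x / N ∈ k
  nd : ∀ x ∈ Λ, (∀ y ∈ Λ, polar Q x y = 0) → x = 0
  full : ∀ x ∈ Λ, ∀ t ∈ k, t ≠ 0 → Q x = N * t ^ 2 → x ∈ Φ

/-- There is a full form of rank at least three over `k`, and `k` has at least five elements. -/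
def Lie (Φ : Set V) (k : Subfield K) : Prop :=
  5 ≤ Nat.card k ∧ ∃ (N : K) (Λ : Submodule k V), Fm Q Φ k N Λ ∧ 3 ≤ finrank k Λ

/-- The roots in the span of three vectors. -/
def In3 (Φ : Set V) (u v w x : V) : Prop := x ∈ Φ ∧ x ∈ Submodule.span K {u, v, w}

/-- Types `A₃`, `B₃`. -/
def TyB (T : V → Prop) : Prop :=
  (∀ x y, T x → T y → cc Q x y = 0 ∨ cc Q x y = 1 ∨ cc Q x y = 2 ∨ Par K x y) ∧
  ((3 : K) ≠ 0 → ∃ col : V → Bool, ∀ x y, T x → T y →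
    (cc Q x y = 1 → col x = col y) ∧ (cc Q x y = 2 → col x ≠ col y))

/-- `c` is the two-cycle of a rotation of order five. -/
def Gold (c : K) : Prop := c ^ 2 - 3 * c + 1 = 0

/-- Type `H₃`. -/
def TyH (T : V → Prop) : Prop :=
  (5 : K) ≠ 0 ∧ ∀ x y, T x → T y → cc Q x y = 0 ∨ cc Q x y = 1 ∨ Gold (cc Q x y) ∨ Par K x y

/-- The list of the rank three groups. -/
def List3 (Φ : Set V) : Prop :=
  ∀ u ∈ Φ, ∀ v ∈ Φ, ∀ w ∈ Φ, dt Q u v w ≠ 0 → polar Q u v ≠ 0 →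
    (polar Q u w ≠ 0 ∨ polar Q v w ≠ 0) →
    (∃ k, Lie Q Φ k ∧ ∀ x y, In3 (K := K) Φ u v w x → In3 (K := K) Φ u v w y → cc Q x y ∈ k) ∨
      TyB Q (In3 (K := K) Φ u v w) ∨ TyH Q (In3 (K := K) Φ u v w)

/-- Degenerate triples give affine lines of roots. -/
def Deg (Φ : Set V) : Prop :=
  ∀ u ∈ Φ, ∀ v ∈ Φ, ∀ w ∈ Φ, LinearIndependent K ![u, v, w] → dt Q u v w = 0 → cc Q u v ≠ 0 →
    cc Q u v ≠ 4 → ∃ f, f ≠ 0 ∧ Q f = 0 ∧ polar Q u f = 0 ∧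
      ∀ a ∈ Subfield.closure ({a | ∃ x, In3 (K := K) Φ u v w x ∧ a = cc Q u x} ∪
        {a | ∃ x y, In3 (K := K) Φ u v w x ∧ In3 (K := K) Φ u v w y ∧ a = tau Q u x y}),
        u + a • f ∈ Φ

/-- Affine lines of roots are rational. -/
def Line (Φ : Set V) : Prop :=
  ∀ u ∈ Φ, ∀ f, f ≠ 0 → Q f = 0 → polar Q u f = 0 → u + f ∈ Φ →
    (∃ k, Lie Q Φ k ∧ ∀ a : K, u + a • f ∈ Φ → a ∈ k) ∨
      ((3 : K) = 0 ∧ ∀ a : K, u + a • f ∈ Φ → a ^ 3 = a)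

/-- Every root is rational with respect to every full `k`-form. -/
def Rat (Φ : Set V) (k : Subfield K) : Prop :=
  ∀ (N : K) (Λ : Submodule k V), Fm Q Φ k N Λ → 3 ≤ finrank k Λ → ∀ r ∈ Φ,
    (∃ x ∈ Λ, polar Q r x ≠ 0) →
      ∃ a : K, a ≠ 0 ∧ Q (a • r) / N ∈ k ∧ ∀ x ∈ Λ, polar Q (a • r) x / N ∈ k

/-- A set of vectors of norm `N`, closed under its reflections and irreducible. -/
structure Cl (Ψ : Set V) (N : K) : Prop where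
  two : (2 : K) ≠ 0
  nd : Q.polarBilin.Nondegenerate
  dim : finrank K V = 7
  ne : N ≠ 0
  norm : ∀ v ∈ Ψ, Q v = N
  cl : Inv Q Ψ Ψ
  nonempty : Ψ.Nonempty
  irr : Irr Q Ψ

/-- Simply laced. -/
structure SL (Ψ : Set V) (N : K) : Prop extends Cl Q Ψ N where
  val : ∀ u ∈ Ψ, ∀ v ∈ Ψ,
    polar Q u v = 0 ∨ polar Q u v = N ∨ polar Q u v = -N ∨ v = u ∨ v = -u

/-- No affine plane. -/
def Tri (Ψ : Set V) (N : K) : Prop :=
  ∀ u ∈ Ψ, ∀ v ∈ Ψ, ∀ w ∈ Ψ, polar Q u v = -N → polar Q u w = -N → polar Q v w = -N →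
    v = u ∨ w = u ∨ w = v ∨ u + v + w = 0

/-- A regular simplex. -/
def Sx {n : ℕ} (x : Fin n → V) (N : K) : Prop := ∀ i j, i ≠ j → Q (x i - x j) = N

/-- The roots of type `A`. -/
def RA {n : ℕ} (x : Fin n → V) : Set V := {v | ∃ i j, i ≠ j ∧ v = x i - x j}

/-- The roots of type `E₇`. -/
def RE (x : Fin 8 → V) : Set V :=
  RA x ∪ {v | ∃ T : Finset (Fin 8), T.card = 4 ∧
    (2 : K) • v = ∑ i, if i ∈ T then x i else -x i}

/-- The roots of type `D₇`. -/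
def RD (e : Fin 7 → V) : Set V :=
  {v | ∃ i j, i ≠ j ∧ (v = e i - e j ∨ v = e i + e j ∨ v = -(e i + e j))}

/-- The group generated by the negatives of the reflections. -/
def Mg (Ψ : Set V) : Subgroup (O Q) :=
  Subgroup.closure {g | ∃ v ∈ Ψ, g = O.negOne Q * refl Q v}

/-- The trace. -/
noncomputable def tr (g : O Q) : K := LinearMap.trace K V g.lin

end defs

/-- The binders of the jobs on root sets over a finite field. -/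
def AllR (P : ∀ (K : Type u) [Field K] (V : Type u) [AddCommGroup V] [Module K V],
    QuadraticForm K V → Set V → Prop) : Prop :=
  ∀ (K : Type u) [Field K] [Finite K] (V : Type u) [AddCommGroup V] [Module K V]
    [FiniteDimensional K V] (Q : QuadraticForm K V) (Φ : Set V), RS Q Φ → P K V Q Φ

/-- The binders of the jobs over an arbitrary field. -/
def AllQ (P : ∀ (K : Type u) [Field K] (V : Type u) [AddCommGroup V] [Module K V],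
    QuadraticForm K V → Prop) : Prop :=
  ∀ (K : Type u) [Field K] (V : Type u) [AddCommGroup V] [Module K V]
    [FiniteDimensional K V] (Q : QuadraticForm K V), P K V Q

/-- Rank three (Dickson). -/
def JobDK : Prop := AllR.{u} fun _ _ _ _ _ Q Φ => List3 Q Φ

/-- Degenerate triples and lines. -/
def JobDeg : Prop := AllR.{u} fun _ _ _ _ _ Q Φ => Deg Q Φ ∧ (List3 Q Φ → Line Q Φ)

/-- Facts on quadratic spaces over finite fields. -/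
def JobQF : Prop := AllQ.{u} fun K _ V _ _ Q => Finite K → (2 : K) ≠ 0 →
  Q.polarBilin.Nondegenerate → (5 ≤ Nat.card K ∧ 2 ≤ finrank K V ∨ 4 ≤ finrank K V) →
    (∀ n, n ≠ 0 → Submodule.span K {x | Q x = n} = ⊤) ∧
    ((5 ≤ Nat.card K ∧ 3 ≤ finrank K V ∨ 5 ≤ finrank K V) →
      (∀ y n r, y ≠ 0 → n ≠ 0 → r ≠ 0 → (∃ v, Q v = n ∧ polar Q v y = r ∧ v ≠ y) ∨
        (5 ≤ Nat.card K ∧ Q y = n ∧ r = 2 * n)) ∧
      ∀ x y, x ≠ 0 → y ≠ 0 → Q x = Q y → (Q x ≠ 0 ∨ 4 ≤ finrank K V) →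
        ∃ g ∈ reflGroup Q {v | ∃ t, t ≠ 0 ∧ Q v = t ^ 2}, g x = y)

/-- Rationality. -/
def JobRat : Prop := JobQF.{u} → AllR.{u} fun _ _ _ _ _ Q Φ =>
  List3 Q Φ → Deg Q Φ → Line Q Φ → (∃ k, Lie Q Φ k) → ∃ k, Lie Q Φ k ∧ Rat Q Φ k

/-- One step of the extension. -/
def Step : Prop := AllQ.{u} fun K _ V _ _ Q => Finite K → (2 : K) ≠ 0 →
  ∀ (Λ : Submodule K V) (f : V) (Ψ : Set V), IsCompl Λ (K ∙ f) → f ≠ 0 →
    (∀ x ∈ Λ, polar Q x f = 0) → (∀ x ∈ Λ, (∀ y ∈ Λ, polar Q x y = 0) → x = 0) →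
    (5 ≤ Nat.card K ∧ 3 ≤ finrank K Λ ∨ 5 ≤ finrank K Λ) → (∀ v ∈ Ψ, Q v ≠ 0) → Inv Q Ψ Ψ →
    (∀ v ∈ Ψ, ∀ a : K, a ≠ 0 → a • v ∈ Ψ) → (∀ x ∈ Λ, ∀ t, t ≠ 0 → Q x = t ^ 2 → x ∈ Ψ) →
    (∃ y ∈ Λ, y ≠ 0 ∧ y + f ∈ Ψ) → ∀ x t, t ≠ 0 → Q x = t ^ 2 → x ∈ Ψ

def JobStep : Prop := JobQF.{u} → Step.{u}

/-- The extension to the whole space. -/
def JobExt : Prop := JobQF.{u} → Step.{u} → AllR.{u} fun K _ V _ _ Q Φ =>
  ∀ (k : Subfield K) (N : K) (Λ : Submodule k V), Fm Q Φ k N Λ → Rat Q Φ k →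
    (5 ≤ Nat.card k ∧ 3 ≤ finrank k Λ ∨ 5 ≤ finrank k Λ) →
    (∀ g ∈ reflGroup Q Φ, tr Q g ∈ k) ∧ (k = ⊤ → commutator (O Q) ≤ reflGroup Q Φ)

/-- Colouring. -/
def JobCol : Prop := AllR.{u} fun K _ V _ _ Q Φ =>
  (∀ x ∈ Φ, ∀ y ∈ Φ, cc Q x y = 0 ∨ cc Q x y = 1 ∨ cc Q x y = 2 ∨ Par K x y) →
  (∀ x ∈ Φ, ∀ y ∈ Φ, ∀ z ∈ Φ, cc Q x y = 2 → cc Q x z ≠ 0 → cc Q y z ≠ 0 →
    (cc Q x z = 2 ↔ cc Q y z ≠ 2)) →
  ∃ (Ψ : Set V) (N : K), Ψ ⊆ Φ ∧ Inv Q Φ Ψ ∧ SL Q Ψ N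

/-- Systems containing `H₃` have rank at most four. -/
def JobSH : Prop := AllQ.{u} fun K _ V _ _ Q => (5 : K) ≠ 0 →
  ∀ (Ψ : Set V) (N : K), Cl Q Ψ N →
    (∀ u ∈ Ψ, ∀ v ∈ Ψ, cc Q u v = 0 ∨ cc Q u v = 1 ∨ Gold (cc Q u v) ∨ v = u ∨ v = -u) →
    (∀ u ∈ Ψ, ∀ v ∈ Ψ, ∀ w ∈ Ψ, Gold (cc Q u v) → LinearIndependent K ![u, v, w] →
      dt Q u v w ≠ 0) → ∀ u ∈ Ψ, ∀ v ∈ Ψ, ¬ Gold (cc Q u v)

/-- The small case. -/
def JobSm : Prop := JobCol.{u} → JobSH.{u} → AllR.{u} fun K _ V _ _ Q Φ =>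
  List3 Q Φ → Deg Q Φ → Line Q Φ → (∀ k, ¬ Lie Q Φ k) →
    ∃ (Ψ : Set V) (N : K), Ψ ⊆ Φ ∧ Inv Q Φ Ψ ∧ SL Q Ψ N

/-- Simply laced systems. -/
def JobS3 : Prop := AllQ.{u} fun K _ V _ _ Q =>
  ∀ (Ψ : Set V) (N : K), SL Q Ψ N → Tri Q Ψ N →
    (∃ (n : ℕ) (x : Fin n → V), 8 ≤ n ∧ Sx Q x N ∧ Ψ = RA x) ∨
    (∃ x : Fin 8 → V, Sx Q x N ∧ Ψ = RE (K := K) x) ∨
    ∃ e : Fin 7 → V, (∀ i, 2 * Q (e i) = N) ∧ (∀ i j, i ≠ j → polar Q (e i) (e j) = 0) ∧ Ψ = RD e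

/-- Affine planes over the field with three elements. -/
def JobAff : Prop := AllQ.{u} fun K _ V _ _ Q =>
  ∀ (Ψ : Set V) (N : K), SL Q Ψ N →
    (∀ g ∈ reflGroup Q Ψ, tr Q g ∈ (⊥ : Subfield K)) ∧ ((3 : K) ≠ 0 → Tri Q Ψ N) ∧
    (Nat.card K = 3 → ¬ Tri Q Ψ N →
      ∃ Λ : Submodule (⊤ : Subfield K) V, Fm Q Ψ ⊤ N Λ ∧ finrank (⊤ : Subfield K) Λ = 5)

/-- Simplices and frames. -/
def JobSx : Prop := AllQ.{u} fun K _ V _ _ Q => (2 : K) ≠ 0 → Q.polarBilin.Nondegenerate →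
  finrank K V = 7 → ∀ N : K, N ≠ 0 →
    (∀ (n : ℕ) (x : Fin n → V), 3 ≤ n → Sx Q x N → Submodule.span K (RA x) = ⊤ →
      (n = 8 ∨ n = 9 ∧ (3 : K) = 0) ∧ ⁅Mg Q (RA x), Mg Q (RA x)⁆ ≠ Mg Q (RA x) ∧
      ∀ h : O Q, LinearMap.det h.lin = 1 → ∀ σ : Equiv.Perm (Fin n),
        ((∀ i j, h (x i - x j) = x (σ i) - x (σ j)) ∨
          ∀ i j, h (x i - x j) = x (σ j) - x (σ i)) → h ∈ Mg Q (RA x)) ∧
    ∀ e : Fin 7 → V, (∀ i, 2 * Q (e i) = N) → (∀ i j, i ≠ j → polar Q (e i) (e j) = 0) →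
      ¬ (IsSimpleGroup (Mg Q (RD e)) ∧ ¬ IsMulCommutative (Mg Q (RD e)))

/-- The Weyl group of type `E₇`. -/
def JobE7 : Prop := AllQ.{u} fun K _ V _ _ Q => (2 : K) ≠ 0 → Q.polarBilin.Nondegenerate →
  finrank K V = 7 → ∀ (N : K) (x : Fin 8 → V), N ≠ 0 → Sx Q x N →
    Nonempty (Mg Q (RE (K := K) x) ≃* Cfsg.PSp 3 (ZMod 2))

/-! ### Kit -/

section kit

variable {K : Type u} [Field K] {V : Type u} [AddCommGroup V] [Module K V] {Q : QuadraticForm K V}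
  {Φ : Set V} {u v w : V}

theorem RS.smul (h : RS Q Φ) (hv : v ∈ Φ) {a : K} (ha : a ≠ 0) : a • v ∈ Φ :=
  h.full _ (by rw [Q_smul]; exact mul_ne_zero (mul_ne_zero ha ha) (h.ne v hv))
    (by rw [refl_smul ha]; exact refl_mem_reflGroup hv)

theorem RS.neg (h : RS Q Φ) (hv : v ∈ Φ) : -v ∈ Φ := by
  simpa using h.smul hv (neg_ne_zero.2 one_ne_zero)

theorem RS.map (h : RS Q Φ) {g : O Q} (hg : g ∈ reflGroup Q Φ) (hv : v ∈ Φ) : g v ∈ Φ :=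
  h.full _ (by rw [O.map_Q]; exact h.ne v hv)
    (by rw [← conj_refl]; exact mul_mem (mul_mem hg (refl_mem_reflGroup hv)) (inv_mem hg))

theorem RS.inv (h : RS Q Φ) : Inv Q Φ Φ := fun _ hu _ hv => h.map (refl_mem_reflGroup hu) hv

theorem RS.irr' (h : RS Q Φ) : Irr Q Φ := h.irr Φ subset_rfl h.nonempty h.inv

theorem cc_comm (u v : V) : cc Q u v = cc Q v u := by rw [cc, cc, polar_comm, mul_comm]

theorem cc_self (h : Q u ≠ 0) : cc Q u u = 4 := by rw [cc, polar_self']; field_simp; norm_num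

theorem cc_smul_left {a : K} (ha : a ≠ 0) (u v : V) : cc Q (a • u) v = cc Q u v := by
  rw [cc, cc, polar_smul_left, Q_smul, smul_eq_mul, mul_pow, sq a, mul_assoc (a * a),
    mul_div_mul_left _ _ (mul_ne_zero ha ha)]

theorem cc_smul_right {a : K} (ha : a ≠ 0) (u v : V) : cc Q u (a • v) = cc Q u v := by
  rw [cc_comm, cc_smul_left ha, cc_comm]

theorem cc_map (g : O Q) (u v : V) : cc Q (g u) (g v) = cc Q u v := by simp [cc]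

theorem cc_eq_zero (hu : Q u ≠ 0) (hv : Q v ≠ 0) : cc Q u v = 0 ↔ polar Q u v = 0 := by
  simp [cc, hu, hv]

theorem polar_refl (u v w : V) :
    polar Q (refl Q u v) w = polar Q v w - (Q u)⁻¹ * polar Q u v * polar Q u w := by
  rw [refl_apply, polar_sub_left, polar_smul_left, smul_eq_mul]

theorem cc_refl (hu : Q u ≠ 0) (hv : Q v ≠ 0) (hw : Q w ≠ 0) :
    cc Q (refl Q u v) w = cc Q v w - 2 * tau Q u v w + cc Q u v * cc Q u w := by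
  rw [cc, polar_refl, O.map_Q, cc, cc, cc, tau, polar_comm Q w u]
  field_simp
  ring

theorem tau_sq (u v w : V) : tau Q u v w ^ 2 = cc Q u v * cc Q v w * cc Q u w := by
  rw [tau, cc, cc, cc, polar_comm Q w u, div_pow, div_mul_div_comm, div_mul_div_comm]
  congr 1 <;> ring

end kit

end H31.O7
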