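/- Commutators in `SL_n(3)`: the blocks with an irreducible quadratic of determinant `-1`
(job E3 of the tower for row S2444). -/
import Cfsg.Agent.H60.OreSpec

set_option autoImplicit false

namespace H31.OE
open Polynomial Module H53 H60.Ore

universe u
variable {F : Type u} [Field F]

theorem three_eq_zero [Fintype F] (h : Fintype.card F = 3) : (3 : F) = 0 := by
  have := FiniteField.cast_card_eq_zero F
  rw [h] at this; exact_mod_cast this

theorem sq_one [Fintype F] (h : Fintype.card F = 3) {x : F} (hx : x ≠ 0) : x ^ 2 = 1 := by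
  have := FiniteField.pow_card_sub_one_eq_one x hx
  rwa [h] at this

theorem pm [Fintype F] (h : Fintype.card F = 3) {x : F} (hx : x ≠ 0) : x = 1 ∨ x = -1 := by
  have : (x - 1) * (x + 1) = 0 := by linear_combination sq_one h hx
  rcases mul_eq_zero.1 this with h | h
  · left; linear_combination h
  · right; linear_combination h

/-- The monic quadratic `X ^ 2 + s X + c`. -/
noncomputable def qd (s c : F) : F[X] := X ^ 2 + C s * X + C c

theorem qd_monic (s c : F) : (qd s c).Monic := by unfold qd; monicity!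

theorem qd_deg (s c : F) : (qd s c).natDegree = 2 := by unfold qd; compute_degree!

theorem qd_irr [Fintype F] (h : Fintype.card F = 3) {s c : F} (h0 : c ≠ 0)
    (h1 : 1 + s + c ≠ 0) (h2 : 1 - s + c ≠ 0) : Irreducible (qd s c) := by
  apply irreducible_of_degree_le_three_of_not_isRoot
  · rw [qd_deg]; decide
  · intro x hx
    simp only [qd, IsRoot.def, eval_add, eval_pow, eval_X, eval_mul, eval_C] at hx
    by_cases x0 : x = 0
    · apply h0; rw [x0] at hx; linear_combination hx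
    · rcases pm h x0 with rfl | rfl
      · apply h1; linear_combination hx
      · apply h2; linear_combination hx

theorem qd_dt (s c : F) : dt (qd s c) = c := by
  rw [dt, qd_deg]; simp [qd]

theorem med_qd {a b c d s t : F} (hc : c ≠ 0) (hs : s = -(a + d)) (ht : t = a * d - b * c) :
    med !![a, b; c, d] = edc (qd s t) := by
  rw [med_two hc, hs, ht, qd]; congr 1; simp only [map_neg]; ring

theorem e_eq (τ : F) : (X ^ 2 - C τ * X - 1 : F[X]) = qd (-τ) (-1) := by
  simp only [qd, map_neg, map_one]; ring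

theorem e_irr [Fintype F] (h : Fintype.card F = 3) {τ : F} (hτ : τ ≠ 0) :
    Irreducible (qd τ (-1)) :=
  qd_irr h (by simp) (fun e => hτ (by linear_combination e))
    (fun e => hτ (by linear_combination -e))

theorem e_pp [Fintype F] (h : Fintype.card F = 3) {τ : F} (hτ : τ ≠ 0) : IsPP (qd τ (-1)) :=
  isPP_of_irreducible (qd_monic _ _) (e_irr h hτ)

theorem med_C [Fintype F] (h : Fintype.card F = 3) {τ : F} (hτ : τ ≠ 0) :
    med !![0, 1; 1, τ] = {qd (-τ) (-1)} := by
  rw [med_qd (s := -τ) (t := -1) one_ne_zero (by ring) (by ring), edc_pp (e_pp h (neg_ne_zero.2 hτ))]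

/-- Two equal blocks: closed of weight `-1`. -/
theorem ee_neg [Fintype F] (h : Fintype.card F = 3) {τ : F} (hτ : τ ≠ 0) :
    E {qd (-τ) (-1), qd (-τ) (-1)} 0 0 (-1 : F) True := by
  have h3 := three_eq_zero h
  have t2 := sq_one h hτ
  have i1 : IsPP (qd (0 : F) 1) := isPP_of_irreducible (qd_monic _ _)
    (qd_irr h one_ne_zero (by intro e; grind) (by intro e; grind))
  have e1 := E.mat (g := !![0, 1; 1, τ]) (P := !![1, -τ; -τ, -1]) (Y := !![-τ, 0; -1, τ])
    (by ext i j; fin_cases i <;> fin_cases j <;> simp [Matrix.mul_apply, Fin.sum_univ_two] <;> grind)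
  have e2 := E.mat (g := !![0, 1; 1, τ]) (P := !![1, 0; τ, -1]) (Y := !![0, 1; -1, 0])
    (by ext i j; fin_cases i <;> fin_cases j <;> simp [Matrix.mul_apply, Fin.sum_univ_two])
  rw [med_C h hτ, med_qd (s := 0) (t := 1) (neg_ne_zero.2 hτ) (by ring) (by grind),
    med_qd (s := 0) (t := -1) (by simp) (by ring) (by grind), edc_pp i1] at e1
  rw [med_C h hτ, med_qd (s := 0) (t := -1) hτ (by ring) (by ring),
    med_qd (s := 0) (t := 1) (by simp) (by ring) (by ring), edc_pp i1] at e2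
  have hf : qd (0 : F) (-1) = (X - C 1) * (X - C (-1)) := by
    simp only [qd, map_neg, map_one, map_zero]; ring
  have e1' := e1.flag (c := 1) (by
    rw [hf, edc_lin_mul (by simp; grind)]; exact Multiset.mem_cons_self _ _) (by
    intro hm
    have := congrArg natDegree (Multiset.mem_singleton.1 hm)
    rw [qd_deg, natDegree_X_sub_C] at this
    omega)
  refine (e1'.add e2).congr (by simp [add_comm]) ?_ (fun _ => Or.inl trivial)
  simp [Matrix.det_fin_two]; grind

theorem med_CC [Fintype F] (h : Fintype.card F = 3) {τ : F} (hτ : τ ≠ 0) :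
    med !![0, 1, 0, 0; 1, τ, 0, 0; 0, 0, 0, 1; 0, 0, 1, τ] = {qd (-τ) (-1), qd (-τ) (-1)} := by
  have : !![0, 1, 0, 0; 1, τ, 0, 0; 0, 0, 0, 1; 0, 0, 1, τ] =
      Matrix.reindex finSumFinEquiv finSumFinEquiv
        (Matrix.fromBlocks !![0, 1; 1, τ] 0 0 !![0, 1; 1, τ]) := by
    ext i j; fin_cases i <;> fin_cases j <;> rfl
  rw [this, med_reindex, med_fromBlocks, med_C h hτ]; rfl

theorem det4 (a b c d e f g h i j k l m n o p : F) :
    Matrix.det !![a, b, c, d; e, f, g, h; i, j, k, l; m, n, o, p] =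
      a * (f * (k * p - l * o) - g * (j * p - l * n) + h * (j * o - k * n))
      - b * (e * (k * p - l * o) - g * (i * p - l * m) + h * (i * o - k * m))
      + c * (e * (j * p - l * n) - f * (i * p - l * m) + h * (i * n - j * m))
      - d * (e * (j * o - k * n) - f * (i * o - k * m) + g * (i * n - j * m)) := by
  simp [Matrix.det_succ_row_zero, Fin.sum_univ_succ, Fin.succAbove]
  ring

/-- Two equal blocks: closed of weight `1`. -/
theorem ee_pos [Fintype F] (h : Fintype.card F = 3) {τ : F} (hτ : τ ≠ 0) :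
    E {qd (-τ) (-1), qd (-τ) (-1)} 0 0 (1 : F) True := by
  have h3 := three_eq_zero h
  rw [← med_CC h hτ]
  rcases pm h hτ with rfl | rfl
  · have := E.of_comm' (F := F) (g := !![0, 1, 0, 0; 1, 1, 0, 0; 0, 0, 0, 1; 0, 0, 1, 1])
      (P := !![0, 0, 1, 0; 0, 1, 1, 0; 0, 0, 0, 1; 1, 0, -1, 0])
      (Y := !![0, 0, 0, 1; 1, 1, 0, 1; 0, 0, 1, 1; 0, 1, 0, -1])
      (c := !![1, 0, 0, 0; 0, 0, 1, 1; 0, 1, 0, 0; 0, 0, 1, 0])
      (c' := !![1, 0, 0, 0; 0, 0, 1, 0; 0, 0, 0, 1; 0, 1, 0, -1]) (a := -1)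
      (v := ![-1, 0, 1, 1]) (w := ![1, -1, 0, -1])
      (by ext i j; fin_cases i <;> fin_cases j <;> simp [Matrix.mul_apply, Fin.sum_univ_four])
      (by ext i j; fin_cases i <;> fin_cases j <;> simp [Matrix.mul_apply, Fin.sum_univ_four])
      (by ext i j; fin_cases i <;> fin_cases j <;>
            simp [Matrix.mul_apply, Fin.sum_univ_four] <;> grind)
      (by ext i; fin_cases i <;> simp [Matrix.mulVec, dotProduct, Fin.sum_univ_four] <;> grind)
      (by ext i; fin_cases i <;> simp [Matrix.vecMul, dotProduct, Fin.sum_univ_four] <;> grind)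
      (by simp [dotProduct, Fin.sum_univ_four]; grind)
    convert this using 1
    rw [det4]; grind
  · have := E.of_comm' (F := F) (g := !![0, 1, 0, 0; 1, -1, 0, 0; 0, 0, 0, 1; 0, 0, 1, -1])
      (P := !![0, -1, 0, -1; 0, 0, 0, 1; 0, 0, -1, 0; 1, 0, 0, 0])
      (Y := !![-1, 1, -1, 1; 0, 0, 1, -1; 0, 0, 0, -1; 0, 1, 0, 0])
      (c := !![-1, 1, 1, 0; -1, 0, 0, 0; 0, 1, 0, 0; 0, 0, 0, -1])
      (c' := !![0, -1, 0, 0; 0, 0, 1, 0; 1, -1, -1, 0; 0, 0, 0, -1]) (a := -1)
      (v := ![1, 0, 0, 0]) (w := ![1, -1, -1, 0])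
      (by ext i j; fin_cases i <;> fin_cases j <;> simp [Matrix.mul_apply, Fin.sum_univ_four])
      (by ext i j; fin_cases i <;> fin_cases j <;> simp [Matrix.mul_apply, Fin.sum_univ_four])
      (by ext i j; fin_cases i <;> fin_cases j <;>
            simp [Matrix.mul_apply, Fin.sum_univ_four] <;> grind)
      (by ext i; fin_cases i <;> simp [Matrix.mulVec, dotProduct, Fin.sum_univ_four] <;> grind)
      (by ext i; fin_cases i <;> simp [Matrix.vecMul, dotProduct, Fin.sum_univ_four] <;> grind)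
      (by simp [dotProduct, Fin.sum_univ_four])
    convert this using 1
    rw [det4]; grind

theorem flex_ee [Fintype F] (h : Fintype.card F = 3) {τ : F} (hτ : τ ≠ 0) :
    Flex {qd (-τ) (-1), qd (-τ) (-1)} := by
  refine Flex.of_closed (by simp [qd_dt]) fun ω hω => ?_
  rcases pm h hω with rfl | rfl
  · exact ee_pos h hτ
  · exact ee_neg h hτ

/-- The auxiliary polynomial `X ^ (4 m + 3) - X ^ (4 m + 1) + b`. -/
noncomputable def zz (m : ℕ) (b : F) : F[X] := X ^ (4 * m + 3) - X ^ (4 * m + 1) + C b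

theorem zz_monic (m : ℕ) (b : F) : (zz m b).Monic := by unfold zz; monicity! <;> omega

theorem zz_deg (m : ℕ) (b : F) : (zz m b).natDegree = 4 * m + 3 := by
  unfold zz; compute_degree! <;> omega

theorem zz_dt (m : ℕ) (b : F) : dt (zz m b) = -b := by
  rw [dt, zz_deg, Odd.neg_one_pow ⟨2 * m + 1, by ring⟩]; simp [zz]

theorem zz_one (m : ℕ) (b : F) : (zz m b).eval 1 = b := by simp [zz]

theorem zz_neg (m : ℕ) (b : F) : (zz m b).eval (-1) = b := by
  simp [zz, Odd.neg_one_pow (n := 4 * m + 3) ⟨2 * m + 1, by ring⟩,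
    Odd.neg_one_pow (n := 4 * m + 1) ⟨2 * m, by ring⟩]

theorem cop_lin {a : F} {Q : F[X]} (h : Q.eval a ≠ 0) : IsCoprime (X - C a) Q :=
  (irreducible_X_sub_C a).coprime_iff_not_dvd.2 fun hd => h (dvd_iff_isRoot.1 hd)

theorem cop_zz [Fintype F] (h : Fintype.card F = 3) {τ : F} (hτ : τ ≠ 0) (m : ℕ) (b : F) :
    IsCoprime (qd τ (-1)) (zz m b) := by
  have t2 : (C τ : F[X]) ^ 2 = 1 := by rw [← map_pow, sq_one h hτ, map_one]
  have h3 : (3 : F[X]) = 0 := by
    rw [show (3 : F[X]) = C 3 from rfl, three_eq_zero h, map_zero]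
  refine (e_irr h hτ).coprime_iff_not_dvd.2 fun hd => ?_
  have d1 : qd τ (-1) ∣ X ^ 4 - (-1) := ⟨qd (-τ) (-1), by
    simp only [qd, map_neg, map_one]; linear_combination X ^ 2 * t2 + X ^ 2 * h3⟩
  have d2 : qd τ (-1) ∣ X ^ 3 - 2 * X + C τ := ⟨X - C τ, by
    simp only [qd, map_neg, map_one]; linear_combination X * t2⟩
  have d3 : qd τ (-1) ∣ C ((-1) ^ m) * X + C (b - (-1) ^ m * τ) := by
    have : C ((-1) ^ m) * X + C (b - (-1) ^ m * τ) = zz m b -
        (((X ^ 4) ^ m - (-1) ^ m) * (X ^ 3 - X) + (-1) ^ m * (X ^ 3 - 2 * X + C τ)) := by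
      simp only [zz, map_sub, map_mul, map_pow, map_neg, map_one]; ring
    rw [this]
    exact dvd_sub hd (dvd_add ((d1.trans (sub_dvd_pow_sub_pow _ _ m)).mul_right _) (d2.mul_left _))
  have hn : ((-1 : F) ^ m) ≠ 0 := pow_ne_zero _ (by simp)
  have := natDegree_le_of_dvd d3 (fun e => by
    have := congrArg natDegree e
    rw [natDegree_linear hn] at this; simp at this)
  rw [qd_deg, natDegree_linear hn] at this
  omega

theorem good_zz (h2 : (2 : F) ≠ 0) (m : ℕ) {b : F} (hb : b ≠ 0) :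
    Good ((X - C 1) ^ 2 * zz m b) := by
  refine ⟨((monic_X_sub_C 1).pow 2).mul (zz_monic m b), ?_,
    (X + 1) * C b - 2 * X * (X ^ (2 * m + 1) - X ^ (2 * m)),
    (X + 1) * (X ^ (2 * m + 1) - X ^ (2 * m)) - 2 * C b, ?_, ?_⟩
  · rw [coeff_zero_eq_eval_zero]; simpa [zz] using hb
  · simp only [zz, map_sub, map_mul, map_add, map_pow, expand_X, expand_C, map_one, map_ofNat]
    ring
  · set O : F[X] := X ^ (2 * m + 1) - X ^ (2 * m) with hO
    have c1 : IsCoprime (X - C (1 : F)) ((X + 1) * O - 2 * C b) := cop_lin (by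
      simp [hO, h2, hb])
    have c2 : IsCoprime (C b * (X - C (1 : F)) ^ 2) ((X + 1) * O - 2 * C b) :=
      (isCoprime_mul_unit_left_left (isUnit_C.2 (Ne.isUnit hb)) _ _).2 c1.pow_left
    have : C b * (X - C (1 : F)) ^ 2 = (X + 1) * ((X + 1) * C b - 2 * X * O) +
        (2 * X) * ((X + 1) * O - 2 * C b) := by simp only [map_one]; ring
    rw [this] at c2
    exact c2.of_add_mul_right_left.of_mul_left_right

theorem flex_ej [Fintype F] (h : Fintype.card F = 3) (K : Kit F) {τ : F} (hτ : τ ≠ 0) {j : ℕ}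
    (ho : Odd j) (hj : 3 ≤ j) : Flex {qd (-τ) (-1), qd (-τ) (-1) ^ j} := by
  have h3 := three_eq_zero h
  have h2 : (2 : F) ≠ 0 := fun e => one_ne_zero (α := F) (by linear_combination h3 - e)
  obtain ⟨m, rfl⟩ : ∃ m, j = 2 * m + 3 := by obtain ⟨k, rfl⟩ := ho; exact ⟨k - 1, by omega⟩
  have hdt : ∀ k, dt (qd (-τ) (-1) ^ k) = (-1) ^ k := by
    intro k
    induction k with
    | zero => simp [dt]
    | succ k ih => rw [pow_succ, dt_mul ((qd_monic _ _).pow k) (qd_monic _ _), ih, qd_dt, pow_succ]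
  have hf : dt (qd (-τ) (-1) ^ (2 * m + 3)) = -1 := by rw [hdt, ho.neg_one_pow]
  refine Flex.of_closed (by simp [qd_dt, hf]) fun ω hω => ?_
  have hb : -ω ≠ 0 := neg_ne_zero.2 hω
  have hq : qd (-2 : F) 1 = (X - C 1) ^ 2 := by
    simp only [qd, map_neg, map_one, map_ofNat]; ring
  have e1 := E.mat (g := !![0, 1; 1, τ]) (P := !![1, 0; τ, 1]) (Y := !![0, 1; 1, τ + τ])
    (by ext i j; fin_cases i <;> fin_cases j <;> simp [Matrix.mul_apply, Fin.sum_univ_two])
  rw [med_C h hτ, med_qd (s := -2) (t := 1) hτ (by ring) (by ring),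
    med_qd (s := τ) (t := -1) one_ne_zero (by grind) (by ring), hq] at e1
  have mz := zz_monic m (-ω)
  have m1 := (monic_X_sub_C (1 : F)).pow 2
  have m2 := monic_X_sub_C (-1 : F)
  have dχ : dt ((X - C 1) ^ 2 * zz m (-ω)) = ω := by
    rw [dt_mul m1 mz, zz_dt, pow_two, dt_mul (monic_X_sub_C _) (monic_X_sub_C _), dt_lin]; ring
  have e2 := K.ml (qd (-τ) (-1) ^ (2 * m + 3)) (qd τ (-1) * ((X - C (-1)) * zz m (-ω)))
    ((X - C 1) ^ 2 * zz m (-ω)) (-1) ((qd_monic _ _).pow _) ((qd_monic _ _).mul (m2.mul mz))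
    (good_zz h2 m hb)
    (by rw [natDegree_pow, qd_deg, m1.natDegree_mul mz, zz_deg, natDegree_pow, natDegree_X_sub_C]
        ring)
    (by rw [natDegree_pow, qd_deg, (qd_monic _ _).natDegree_mul (m2.mul mz), m2.natDegree_mul mz,
          zz_deg, qd_deg, natDegree_X_sub_C]
        ring)
    (by rw [dχ, hf, dt_mul (qd_monic _ _) (m2.mul mz), dt_mul m2 mz, qd_dt, dt_lin, zz_dt]; ring)
    (Or.inl (by
      rw [eval_mul, zz_neg]
      refine mul_ne_zero ?_ hb
      simp only [eval_pow, eval_sub, eval_X, eval_C]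
      intro e; grind))
  rw [edc_pp ⟨_, _, qd_monic _ _, e_irr h (neg_ne_zero.2 hτ), by omega, rfl⟩,
    edc_mul (qd_monic _ _).ne_zero (m2.mul mz).ne_zero
      ((cop_lin (by simp [qd]; intro e; grind)).symm.mul_right (cop_zz h hτ m _)),
    edc_lin_mul (by rw [zz_neg]; exact hb),
    edc_mul m1.ne_zero mz.ne_zero (cop_lin (by rw [zz_one]; exact hb)).pow_left, dχ] at e2
  refine (e1.add e2).congr ?_ ?_ (fun _ => Or.inr trivial)
  · simp only [← Multiset.singleton_add]; abel
  · simp [Matrix.det_fin_two]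

theorem jobE3 : JobE3.{u} := fun F _ _ h K τ hτ => by
  rw [e_eq]
  exact ⟨flex_ee h hτ, fun j ho hj => flex_ej h K hτ ho hj⟩

end H31.OE
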