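import Cfsg.Agent.H70.R3Spec

/-! Quotients and `p`-regular classes. -/

set_option autoImplicit false

namespace H31.R3Q

open Cfsg H34.TL H70.R3 Subgroup

universe u

variable {G H : Type*} [Group G] [Finite G] [Group H] {p : ℕ} [hp : Fact p.Prime]

theorem lift_reg (π : G →* H) (hs : Function.Surjective π) (x : H) (hx : ¬ p ∣ orderOf x) :
    ∃ g, π g = x ∧ ¬ p ∣ orderOf g ∧ (x = 1 → g = 1) := by
  by_cases x1 : x = 1
  · exact ⟨1, by rw [x1, map_one], by simpa using hp.out.ne_one, fun _ => rfl⟩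
  obtain ⟨g, rfl⟩ := hs x
  obtain ⟨i, k, h1, h2⟩ := H84.exists_pPart_pow p g
  have h3 : π (g ^ i) = 1 := orderOf_eq_one_iff.1 (Nat.eq_one_of_dvd_coprimes
    ((hp.out.coprime_iff_not_dvd.2 hx).pow_left k)
    (orderOf_dvd_of_pow_eq_one (by rw [← map_pow, h1, map_one]))
    (by rw [map_pow]; exact orderOf_pow_dvd i))
  exact ⟨(g ^ i)⁻¹ * g, by rw [map_mul, map_inv, h3, inv_one, one_mul], h2, fun e => absurd e x1⟩

theorem lift_p (π : G →* H) (hs : Function.Surjective π) (x : H) (hx : ∃ k, orderOf x = p ^ k) :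
    ∃ g, π g = x ∧ ∃ k, orderOf g = p ^ k := by
  obtain ⟨k, hk⟩ := hx
  obtain ⟨g, rfl⟩ := hs x
  obtain ⟨i, j, h1, h2⟩ := H84.exists_pPart_pow p g
  have h3 : π ((g ^ i)⁻¹ * g) = 1 := orderOf_eq_one_iff.1 (Nat.eq_one_of_dvd_coprimes
    ((hp.out.coprime_iff_not_dvd.2 h2).pow_left k) (hk ▸ orderOf_dvd_of_mem_zpowers (by
      rw [map_mul, map_inv, map_pow]
      exact mul_mem (inv_mem (pow_mem (mem_zpowers _) i)) (mem_zpowers _)))
    (orderOf_map_dvd π _))
  obtain ⟨l, -, hl⟩ := (Nat.dvd_prime_pow hp.out).1 (orderOf_dvd_of_pow_eq_one h1)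
  rw [map_mul, map_inv, inv_mul_eq_one] at h3
  exact ⟨_, h3, l, hl⟩

theorem kp_add (π : G →* H) (hs : Function.Surjective π) (T : Finset (ConjClasses G))
    (hT : ∀ c ∈ T, ∃ g, ConjClasses.mk g = c ∧ ¬ p ∣ orderOf g ∧ π g = 1 ∧ g ≠ 1) :
    kp p H + T.card ≤ kp p G := by
  have := Finite.of_surjective π hs
  have h1 : ∀ c : {c : ConjClasses H // ∃ g : H, ConjClasses.mk g = c ∧ ¬ p ∣ orderOf g},
      ∃ g, ConjClasses.mk (π g) = c.1 ∧ ¬ p ∣ orderOf g ∧ (π g = 1 → g = 1) := by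
    rintro ⟨_, x, rfl, hx⟩
    obtain ⟨g, rfl, h⟩ := lift_reg π hs x hx
    exact ⟨g, rfl, h⟩
  choose s h1 h2 h3 using h1
  have key : ∀ c, ∀ t ∈ T, ConjClasses.mk (s c) ≠ t := fun c t ht e => by
    obtain ⟨g, rfl, -, h4, h5⟩ := hT t ht
    have h6 := ConjClasses.mk_eq_mk_iff_isConj.1 e
    have h7 := π.map_isConj h6
    rw [h4, isConj_one_left] at h7
    rw [h3 c h7, isConj_one_right] at h6
    exact h5 h6
  rw [← Fintype.card_coe, ← Nat.card_eq_fintype_card, kp, ← Nat.card_sum]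
  refine Nat.card_le_card_of_injective (Sum.elim (fun c => ⟨_, s c, rfl, h2 c⟩)
    fun t : T => ⟨t, (hT t t.2).imp fun _ h => ⟨h.1, h.2.1⟩⟩) ?_
  rintro (a | a) (b | b) e
  · refine congrArg _ (Subtype.ext ?_)
    rw [← h1 a, ← h1 b, ConjClasses.mk_eq_mk_iff_isConj.2
      (π.map_isConj (ConjClasses.mk_eq_mk_iff_isConj.1 (congrArg Subtype.val e)))]
  · exact absurd (congrArg Subtype.val e) (key a b b.2)
  · exact absurd (congrArg Subtype.val e).symm (key b a a.2)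
  · have h4 := congrArg Subtype.val e
    exact congrArg _ (Subtype.ext h4)

theorem jobQ : JobQ.{u} := by
  intro G _ _ p hp N _
  have hs := QuotientGroup.mk'_surjective N
  refine ⟨fun h0 hN => ?_, fun ⟨x₁, x₂, h⟩ => ⟨x₁, x₂, fun y y1 hy => ?_⟩,
    fun hS ⟨x₁, x₂, h⟩ hN h1 hd => ?_⟩
  · obtain ⟨⟨o, ho⟩, o1⟩ := ne_bot_iff_exists_ne_one.1 hN
    simpa using kp_add (p := p) _ hs {ConjClasses.mk o} fun c hc =>
      ⟨o, (Finset.mem_singleton.1 hc).symm, fun e => h0 (e.trans (orderOf_dvd_natCard _ ho)),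
        (QuotientGroup.eq_one_iff o).2 ho, fun e => o1 (Subtype.ext e)⟩
  · obtain ⟨g, rfl, hg⟩ := lift_p _ hs y hy
    exact (h g (fun e => y1 (by rw [e, map_one])) hg).imp (QuotientGroup.mk' N).map_isConj
      (QuotientGroup.mk' N).map_isConj
  · obtain ⟨⟨z, hz⟩, z1⟩ := ne_bot_iff_exists_ne_one.1 h1
    have hz' : ∃ k, orderOf z = p ^ k :=
      (IsPGroup.iff_orderOf.1 hN ⟨z, hz⟩).imp fun _ e => (orderOf_mk z hz).symm.trans e
    have out : ∀ {a g : G}, IsConj a z → IsConj a g → QuotientGroup.mk' N g = 1 := fun h2 h3 => by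
      have h4 := (QuotientGroup.mk' N).map_isConj (h2.symm.trans h3)
      rwa [show QuotientGroup.mk' N z = 1 from (QuotientGroup.eq_one_iff z).2 hz,
        isConj_one_right] at h4
    have h2 := kp_add (p := p) _ hs ∅ (by simp)
    have h3 := hp.out.two_le
    rcases main (H18.isPSolvable_quotient hS N) hd fun x y x1 y1 hx hy => by
      obtain ⟨g, rfl, hg⟩ := lift_p _ hs x hx
      obtain ⟨k, rfl, hk⟩ := lift_p _ hs y hy
      have h4 := h g (fun e => x1 (by rw [e, map_one])) hg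
      have h5 := h k (fun e => y1 (by rw [e, map_one])) hk
      refine (QuotientGroup.mk' N).map_isConj ?_
      rcases h z (fun e => z1 (Subtype.ext e)) hz' with h6 | h6
      · exact (h4.resolve_left fun e => x1 (out h6 e)).symm.trans
          (h5.resolve_left fun e => y1 (out h6 e))
      · exact (h4.resolve_right fun e => x1 (out h6 e)).symm.trans
          (h5.resolve_right fun e => y1 (out h6 e)) with h4 | ⟨h4, -⟩ | ⟨h4, h5, -⟩ <;> omega

end H31.R3Q
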