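import Cfsg.Agent.H52.RCSpec

/-! Tower RC, job LC. -/

set_option autoImplicit false

namespace H31.RCLC

open H52.RC Subgroup

universe u

theorem part1 (kb : KB.{u}) (G : Type u) [Group G] [Finite G] (m : ℕ) (h : H G m) (v y g : G)
    (hv : P2 v) (vc : v ∉ center G) (ho : Odd (orderOf y)) (y1 : y ≠ 1) (hc : Commute v y)
    (gv : Inv g v) (gy : Inv g y) :
    v2 (C1 v ⊓ C1 y) = m ∧ ∀ s : G, Commute s v → ¬ Inv s y := by
  have h1 : C1 (v * y) = C1 v ⊓ C1 y := Subgroup.ext fun t => by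
    rw [mem_inf, mem_C1, mem_C1, mem_C1]
    refine ⟨fun e => ?_, fun e => e.1.mul_right e.2⟩
    obtain ⟨k, hk⟩ := hv
    obtain ⟨j, hj⟩ := exists_pow_eq_self_of_coprime (x := y)
      ((Nat.coprime_two_left.2 ho).pow_left k)
    have h2 : Commute t y := by
      have := (e.pow_right (2 ^ k)).pow_right j
      rwa [hc.mul_pow, hk, one_mul, hj] at this
    exact ⟨by simpa using e.mul_right h2.inv_right, h2⟩
  have h2 : v2 (C1 v ⊓ C1 y) = m := h1 ▸ h _ ⟨g, by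
    change g * (v * y) * g⁻¹ = _
    rw [← conj_mul, gv, gy, hc.eq, mul_inv_rev]⟩ fun e => (kb G m h y ho y1 ⟨g, gy⟩).1
      (mem_center_iff.2 fun t => mem_C1.1 (h1.le (mem_C1.2 (mem_center_iff.1 e t))).2)
  refine ⟨h2, fun s sv sy => ?_⟩
  have hle : C1 v ⊓ C1 y ≤ C1 v ⊓ Cs y := inf_le_inf_left _ fun t ht =>
    .inl (mul_inv_eq_iff_eq_mul.2 (mem_C1.1 ht))
  have h3 : (C1 v ⊓ C1 y).relIndex (C1 v ⊓ Cs y) = 2 := relIndex_eq_two_iff.2
    ⟨s, ⟨mem_C1.2 sv, .inr sy⟩, fun b hb => by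
      have no : ¬ (b * s ∈ C1 v ⊓ C1 y ∧ b ∈ C1 v ⊓ C1 y) := fun e =>
        y1 (eq_one_of_inv_comm sy (mem_C1.1 ((mul_mem_cancel_left e.2).1 e.1).2) ho)
      rcases mem_Cs.1 hb.2 with e | e
      · have : b ∈ C1 v ⊓ C1 y := ⟨hb.1, mem_C1.2 (mul_inv_eq_iff_eq_mul.1 e)⟩
        exact .inr ⟨this, fun e => no ⟨e, this⟩⟩
      · have : b * s ∈ C1 v ⊓ C1 y := ⟨mul_mem hb.1 (mem_C1.2 sv),
          mem_C1.2 (mul_inv_eq_iff_eq_mul.1 (by
            calc b * s * y * (b * s)⁻¹ = b * (s * y * s⁻¹) * b⁻¹ := by group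
              _ = (b * y * b⁻¹)⁻¹ := by rw [sy]; group
              _ = y := by rw [e, inv_inv]))⟩
        exact .inl ⟨this, fun e => no ⟨this, e⟩⟩⟩
  have h4 := ((C1 v ⊓ C1 y).subgroupOf (C1 v ⊓ Cs y)).index_mul_card
  rw [Nat.card_congr (subgroupOfEquivOfLe hle).toEquiv] at h4
  have h5 : 2 * Nat.card (C1 v ⊓ C1 y : Subgroup G) ∣ Nat.card (C1 v) := by
    rw [← h3]
    exact h4 ▸ card_dvd_of_le inf_le_left
  have h6 := (Nat.factorization_le_iff_dvd (mul_ne_zero two_ne_zero Nat.card_pos.ne')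
    Nat.card_pos.ne').2 h5 2
  rw [Nat.factorization_mul two_ne_zero Nat.card_pos.ne', Finsupp.add_apply,
    Nat.prime_two.factorization_self] at h6
  have h7 := h v ⟨g, gv⟩ vc
  unfold v2 at h2 h7
  omega

theorem jobLC : JobLC.{u} := fun _ kb G _ _ m h =>
  ⟨part1 kb G m h, fun i i2 ic x hx g hg ho e => by
    by_contra x1
    refine (part1 kb G m h i x g ⟨1, i2⟩ ic ho x1 (mem_C1.1 hx).symm ?_ e).2 g (mem_C1.1 hg) e
    change g * i * g⁻¹ = i⁻¹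
    rw [(mem_C1.1 hg).eq, mul_inv_cancel_right, eq_inv_iff_mul_eq_one, ← pow_two, i2]⟩

end H31.RCLC
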