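import Cfsg.Agent.H53.SimXASpec

/-! # S3694 (tower SIM), chapter XA: scalars and orders. -/

set_option autoImplicit false

namespace H31.SimXARP

open Subgroup Cfsg H98 Matrix H0.Sim H53.XA

theorem zs : ZS := fun n F _ u q z => by
  rw [Zg, mem_inf, Matrix.GeneralLinearGroup.mem_center_iff_val_mem_range_scalar]
  exact and_congr_right fun _ => ⟨fun ⟨c, h⟩ => ⟨c, h.symm⟩, fun ⟨c, h⟩ => ⟨c, h.symm⟩⟩

theorem norm_of_st {n : ℕ} {F : Type} [Field F] [Fintype F] {Q : Subgroup (GL (Fin n) F)}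
    {h : GL (Fin n) F} (st : St h (mat Q)) : h ∈ normalizer (Q : Set (GL (Fin n) F)) :=
  mem_normalizer_fintype fun y hy => by
    obtain ⟨e, he, h1⟩ := st (y : Mt n F) ⟨y, hy, rfl⟩
    have : e = h * y * h⁻¹ := Units.ext (by rw [h1]; simp)
    exact this ▸ he

theorem center_pow {n : ℕ} {F : Type} [Field F] [Fintype F] {z : GL (Fin n) F}
    (hz : z ∈ center (GL (Fin n) F)) : z ^ (Fintype.card F - 1) = 1 := by
  classical
  rw [Matrix.GeneralLinearGroup.center_eq_range_scalar] at hz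
  obtain ⟨c, rfl⟩ := hz
  rw [← map_pow, ← Fintype.card_units, pow_card_eq_one, map_one]

theorem cop (F : Type) [Field F] [Fintype F] : (Fintype.card F - 1).Coprime (ringChar F) := by
  obtain ⟨k, hp, hk⟩ := FiniteField.card F (ringChar F)
  have h1 : ringChar F ∣ Fintype.card F := hk ▸ dvd_pow_self _ k.ne_zero
  have h2 : (Fintype.card F - 1).Coprime (Fintype.card F) := by
    have : 1 ≤ Fintype.card F := Fintype.card_pos
    obtain ⟨m, hm⟩ : ∃ m, Fintype.card F = m + 1 := ⟨Fintype.card F - 1, by omega⟩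
    rw [hm]; simp
  exact h2.coprime_dvd_right h1

theorem rp : RP := by
  intro n F _ _ u q p Θ H Q E g c
  have rq : ∀ y ∈ Q, Rp y := fun y hy => by
    obtain ⟨k, hk⟩ := c.pQ y hy
    have h1 : y ^ (p ^ k * (Fintype.card F - 1)) = 1 := by
      rw [pow_mul]; exact center_pow hk.2
    have hr : (ringChar F).Prime := CharP.char_is_prime F _
    have h2 : (p ^ k * (Fintype.card F - 1)).Coprime (ringChar F) :=
      Nat.Coprime.mul_left (Nat.Coprime.pow_left _ ((Nat.coprime_primes c.pp hr).2 c.np)) (cop F)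
    exact h2.coprime_dvd_left (orderOf_dvd_of_pow_eq_one h1)
  have QG : Q ≤ Gam n F u q := c.QH.trans c.HG
  refine ⟨⟨c.EQ.trans QG, c.ab, fun e he => rq e (c.EQ he)⟩,
    ⟨c.BQ.trans QG, fun a ha b hb => ?_, fun e he => rq e (c.BQ he)⟩, rq, ?_,
    fun h hh => norm_of_st (Cf0.st c.toCf0 c.ivQ hh),
    fun h hh => norm_of_st (Cf0.st c.toCf0 c.ivE hh)⟩
  · have := c.ab _ (mem_cj.1 ha) _ (mem_cj.1 hb)
    calc a * b = g * (g⁻¹ * a * g * (g⁻¹ * b * g)) * g⁻¹ := by group
      _ = b * a := by rw [this]; group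
  · obtain ⟨e, he, hn⟩ := SetLike.not_le_iff_exists.1 c.ne
    exact ⟨e, he, fun s => hn ((zs n F u q e).2 ⟨QG (c.EQ he), s⟩)⟩

theorem job : JRP := ⟨zs, rp⟩

end H31.SimXARP
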