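import Cfsg.Agent.H2.SpSpec
import Cfsg.Agent.H28.CharBasic

/-! SPIN tower, slot CL: anticommuting operators halve a character. -/

set_option autoImplicit false

namespace H31.SpCL

open Cfsg

theorem trace_zero {V : Type} [AddCommGroup V] [Module ℂ V] [FiniteDimensional ℂ V]
    {f b : Module.End ℂ V} {d : ℂ} (hd : d ≠ 0) (hb : b * b = d • (1 : Module.End ℂ V))
    (h : f * b = -(b * f)) : LinearMap.trace ℂ V f = 0 := by
  have h1 : LinearMap.trace ℂ V (f * b * b) = LinearMap.trace ℂ V (b * (f * b)) :=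
    LinearMap.trace_mul_comm ℂ _ _
  have h2 : b * (f * b) = -(d • f) := by
    rw [h, mul_neg, ← mul_assoc, hb, smul_mul_assoc, one_mul]
  rw [h2, mul_assoc, hb, mul_smul_comm, mul_one, map_neg, map_smul, smul_eq_mul] at h1
  have h3 : 2 * d * LinearMap.trace ℂ V f = 0 := by linear_combination h1
  exact (mul_eq_zero.1 h3).resolve_left (mul_ne_zero two_ne_zero hd)

theorem aux (G : Type) [Group G] (n : ℕ) : ∀ (V κ : Type) [AddCommGroup V] [Module ℂ V]
    [FiniteDimensional ℂ V] [Fintype κ] (ρ : Representation ℂ G V) (a : κ → Module.End ℂ V)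
    (d : κ → ℂ), Fintype.card κ / 2 = n →
    (∀ i, d i ≠ 0 ∧ a i * a i = d i • (1 : Module.End ℂ V)) →
    (∀ i j, i ≠ j → a i * a j = -(a j * a i)) → (∀ g i, ρ g * a i = a i * ρ g) →
    ∃ ψ, IsCharacter G ψ ∧ ∀ g, ρ.character g = 2 ^ n * ψ g := by
  classical
  induction n with
  | zero =>
    intro V κ _ _ _ _ ρ a d _ _ _ _
    exact ⟨ρ.character, H28.isCharacter_rep ρ, fun g => by simp⟩
  | succ n ih =>
    intro V κ _ _ _ _ ρ a d hn hsq han hc
    obtain ⟨i, j, hij⟩ := Fintype.exists_pair_of_one_lt_card (α := κ) (by omega)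
    obtain ⟨c, hcc⟩ := IsAlgClosed.exists_eq_mul_self (d i)⁻¹
    let s : Module.End ℂ V := c • a i
    have hs : s * s = 1 := by
      simp only [s, smul_mul_assoc, mul_smul_comm, (hsq i).2, smul_smul]
      rw [← mul_assoc, ← hcc, inv_mul_cancel₀ (hsq i).1, one_smul]
    have hsa : ∀ k, k ≠ i → s * a k = -(a k * s) := fun k hk => by
      simp only [s, smul_mul_assoc, mul_smul_comm, han i k hk.symm, smul_neg]
    have hsρ : ∀ g, ρ g * s = s * ρ g := fun g => by
      simp only [s, smul_mul_assoc, mul_smul_comm, hc]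
    let U : Submodule ℂ V := LinearMap.ker (s - 1)
    have hU : ∀ v, v ∈ U ↔ s v = v := fun v => by
      simp only [U, LinearMap.mem_ker, LinearMap.sub_apply, Module.End.one_apply, sub_eq_zero]
    have hres : ∀ f : Module.End ℂ V, f * s = s * f → ∀ v ∈ U, f v ∈ U := fun f hf v hv => by
      rw [hU] at hv ⊢
      rw [← Module.End.mul_apply, ← hf, Module.End.mul_apply, hv]
    let σ : Representation ℂ G U := ρ.subrepresentation U fun g => hres _ (hsρ g)
    have hb : ∀ k : {k // k ≠ i ∧ k ≠ j}, a j * a k.1 * s = s * (a j * a k.1) := fun k => by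
      rw [← mul_assoc, hsa j hij.symm, neg_mul, mul_assoc, mul_assoc, hsa k.1 k.2.1, mul_neg,
        neg_neg]
    let b : {k // k ≠ i ∧ k ≠ j} → Module.End ℂ U := fun k =>
      (a j * a k.1).restrict (hres _ (hb k))
    have hcard : Fintype.card {k // k ≠ i ∧ k ≠ j} = Fintype.card κ - 2 := by
      rw [Fintype.card_subtype]
      have : (Finset.univ.filter fun k => k ≠ i ∧ k ≠ j) = Finset.univ \ {i, j} := by
        ext k; simp
      rw [this, Finset.card_univ_diff, Finset.card_pair hij]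
    have hjk : ∀ k l : {k // k ≠ i ∧ k ≠ j},
        a j * a k.1 * (a j * a l.1) = -(d j • (a k.1 * a l.1)) := fun k l => by
      rw [mul_assoc, ← mul_assoc (a k.1), han k.1 j k.2.2, neg_mul, mul_neg, mul_assoc,
        ← mul_assoc, (hsq j).2, smul_mul_assoc, one_mul]
    obtain ⟨ψ, hψ, h⟩ := ih U {k // k ≠ i ∧ k ≠ j} σ b (fun k => -(d j * d k.1)) (by omega)
      (fun k => ⟨neg_ne_zero.2 (mul_ne_zero (hsq j).1 (hsq k.1).1), by
        ext v
        show (a j * a k.1 * (a j * a k.1)) v.1 = -(d j * d k.1) • v.1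
        rw [hjk, (hsq k.1).2, smul_smul]
        simp⟩)
      (fun k l hkl => by
        ext v
        show (a j * a k.1 * (a j * a l.1)) v.1 = -((a j * a l.1 * (a j * a k.1)) v.1)
        rw [hjk, hjk, han k.1 l.1 (fun e => hkl (Subtype.ext e))]
        simp)
      (fun g k => by
        ext v
        show (ρ g * (a j * a k.1)) v.1 = (a j * a k.1 * ρ g) v.1
        rw [← mul_assoc, hc, mul_assoc, hc, mul_assoc])
    refine ⟨ψ, hψ, fun g => ?_⟩
    let f : Module.End ℂ V := (2 : ℂ)⁻¹ • (ρ g + ρ g * s)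
    have hf : ∀ v, f v ∈ U := fun v => by
      rw [hU, ← Module.End.mul_apply]
      congr 1
      simp only [f, mul_smul_comm, mul_add]
      rw [← mul_assoc, ← hsρ, mul_assoc, hs, mul_one, add_comm]
    have h1 := LinearMap.trace_restrict_eq_of_forall_mem U f hf
    have h2 : f.restrict (fun x _ => hf x) = σ g := by
      ext v
      show (2 : ℂ)⁻¹ • (ρ g v.1 + ρ g (s v.1)) = ρ g v.1
      rw [(hU v.1).1 v.2, ← two_smul ℂ, smul_smul, inv_mul_cancel₀ two_ne_zero, one_smul]
    have h3 : LinearMap.trace ℂ V (ρ g * s) = 0 := trace_zero (hsq j).1 (hsq j).2 (by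
      rw [mul_assoc, hsa j hij.symm, mul_neg, ← mul_assoc, hc, mul_assoc])
    rw [h2] at h1
    have h4 : σ.character g = (2 : ℂ)⁻¹ * ρ.character g := by
      show LinearMap.trace ℂ U (σ g) = _ * LinearMap.trace ℂ V (ρ g)
      rw [h1]
      simp only [f, map_smul, map_add, h3, add_zero, smul_eq_mul]
    rw [h g] at h4
    linear_combination (-2) * h4

theorem jobCL : H2.Sp.CL := fun G V κ _ _ _ _ _ _ ρ a d => aux G _ V κ ρ a d rfl

end H31.SpCL
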