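import Cfsg.Agent.H2.SpSpec
import Cfsg.Agent.H28.Degree

/-! SPIN tower, slot WG: weights bound the degrees in the Pin cover. -/

set_option autoImplicit false

namespace H31.SpWG

open Cfsg Equiv H2.Sp H28

theorem val_eq {p d k n m : ℕ} (hp : p.Prime) (ho : Odd p) {ε : ℤ} (hε : ε * ε = 1) {r : ℚ}
    (hd : d ≠ 0) (hm : m ≠ 0) (hr : r ≠ 0) (h : (2 : ℚ) ^ k * d = ε * (2 ^ n * (m * r))) :
    (d.factorization p : ℤ) = m.factorization p + padicValRat p r := by
  haveI : Fact p.Prime := ⟨hp⟩
  have h2 : padicValRat p 2 = 0 := by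
    have : padicValRat p ((2 : ℕ) : ℚ) = 0 := by
      rw [padicValRat.of_nat, padicValNat.eq_zero_of_not_dvd, Nat.cast_zero]
      intro hd
      have := (Nat.prime_dvd_prime_iff_eq hp Nat.prime_two).1 hd
      subst this
      exact absurd ho (by decide)
    exact_mod_cast this
  have hd' : (d : ℚ) ≠ 0 := by exact_mod_cast hd
  have hm' : (m : ℚ) ≠ 0 := by exact_mod_cast hm
  have h3 : padicValRat p ((2 : ℚ) ^ k * d) = padicValRat p (2 ^ n * (m * r)) := by
    rcases Int.eq_one_or_neg_one_of_mul_eq_one hε with rfl | rfl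
    · rw [h]; simp
    · rw [h]; simp
  rw [padicValRat.mul (by positivity) hd', padicValRat.mul (by positivity) (mul_ne_zero hm' hr),
    padicValRat.mul hm' hr, padicValRat.pow, padicValRat.pow, h2,
    padicValRat.of_nat, padicValRat.of_nat] at h3
  rw [Nat.factorization_def _ hp, Nat.factorization_def _ hp]
  linarith

theorem jobWG (hI : Idn) (hNV : NV) (hW : Wt) (hA : DegA) (hB : DegB) (hS : WS) : WG := by
  intro Ω G V _ _ _ _ _ _ _ P h2 p hp ho ξ g σ w hg hparts hξ
  by_cases hz : ξ.1 P.z = ξ.1 1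
  · obtain ⟨χ, hχ, hχ'⟩ := ξ.2.exists_descend P.π P.surj (fun x hx => by
      rcases (P.ker x).1 hx with rfl | rfl
      · exact one_mem _
      · exact ξ.2.mem_charKer.2 hz)
    have h1 := hS Ω p hp ⟨χ, hχ⟩ (P.π g) σ w hparts (by show χ _ ≠ 0; rw [hχ']; exact hξ)
    have h3 : charDegree ξ.1 = charDegree χ := charDegree_congr (by rw [← hχ', map_one])
    rw [h3]; exact h1
  · obtain ⟨l, hl, k, ε, hε, h⟩ := hI P h2 ξ hz
    have h1 := h g hg
    have hv : val (Q l) (σ + Multiset.replicate w p) ≠ 0 := fun e => by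
      rw [Pin.Φ, hparts, e] at h1
      simp [hξ] at h1
    have hw := hNV p ho l σ w hv
    have h3 := h 1 (by simp)
    rw [Pin.Φ, map_one, H40.Sn.parts_one, Representation.char_one, P.dim,
      ← ξ.2.cast_charDegree] at h3
    have hd := ξ.2.charDegree_pos
    have hv1 : val (Q l) (Multiset.replicate (Fintype.card Ω) 1) ≠ 0 := fun e => by
      rw [e] at h3
      simp [hd.ne'] at h3
    have hs := hW l _ (fun r hr => by rw [Multiset.eq_of_mem_replicate hr]; exact odd_one) hv1
    rw [Multiset.sum_replicate, smul_eq_mul, mul_one] at hs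
    have h4 := hA l hl
    rw [hs, Int.toNat_natCast] at h4
    rw [h4] at h3
    have h5 : (2 : ℚ) ^ k * charDegree ξ.1 =
        ε * (2 ^ Fintype.card Ω * ((Fintype.card Ω).factorial * R l)) := by
      exact_mod_cast h3
    obtain ⟨hR, hR'⟩ := hB p hp ho l hl
    have h6 := val_eq hp ho hε hd.ne' (Nat.factorial_ne_zero _) hR h5
    omega

end H31.SpWG
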