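import Cfsg.Agent.H11.T3Spec
import Cfsg.Agent.H1.CoprimeGen

/-! T3 tower, slot NN: `N = W D₂` is not essential. -/

set_option autoImplicit false
set_option linter.unusedSectionVars false

open Subgroup H92 Cfsg Cfsg.FusionSystem H11.T3 H11.T3.Co
open H90.RF (cm Au Pr au_af mem_nor conj_eq_cm)
open H90.U5 (Dt stb stb_nm pr_bot)

namespace H31.T3

section Gen

variable {P : Type} [Group P] [Finite P] {p : ℕ} [Fact p.Prime] {E : Subgroup P}
  {Y H K : Subgroup (MulAut E)}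

theorem le_of_noncyc (D : Dt p E Y H) (hY : K ≤ Y) (hK : ∀ y ∈ Y, ∀ n ∈ K, y * n * y⁻¹ ∈ K)
    (hA : ∀ a ∈ K, a ∈ autInducedBy ⊤ E → a ∈ Inn E)
    (ab : ∀ s ∈ normalizer (E : Set P), ∀ t ∈ normalizer (E : Set P), (t * s)⁻¹ * (s * t) ∈ E)
    {κ : Type} [Finite κ] (hκ : p < Nat.card κ) (f : κ → P) (hf : ∀ x, f x ∈ normalizer (E : Set P))
    (pw : ∀ x, f x ^ p ∈ E) (inj : ∀ x y, (f x)⁻¹ * f y ∈ E → x = y) : K ≤ H := by
  classical
  haveI := innNormal E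
  let π := QuotientGroup.mk' (Inn E)
  let c : normalizer (E : Set P) →* MulAut E ⧸ Inn E := π.comp E.normalizerMonoidHom
  have hc : ∀ s : normalizer (E : Set P), c s = 1 ↔ s.1 ∈ E := fun s =>
    (QuotientGroup.eq_one_iff _).trans (cAut_mem_Inn_iff D.cen le_top ⟨trivial, s.2⟩)
  have ex : ∀ a ∈ (autInducedBy ⊤ E).map π, ∃ s, a = c s := by
    rintro _ ⟨a, ha, rfl⟩
    obtain ⟨s, -, h⟩ := mem_autInducedBy.1 ha
    exact ⟨⟨s, mem_normalizer_of_af h⟩, congrArg π (aut_ext fun x hx => (h x hx).trans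
      (af_cAut (mem_normalizer_of_af h) hx).symm)⟩
  have cm : ∀ s, c s ∈ (autInducedBy ⊤ E).map π := fun s => ⟨_, cAut_mem s.2 trivial, rfl⟩
  haveI : IsMulCommutative ((autInducedBy ⊤ E).map π) := ⟨⟨fun a b => Subtype.ext (by
    obtain ⟨s, hs⟩ := ex _ a.2
    obtain ⟨t, ht⟩ := ex _ b.2
    rw [coe_mul, coe_mul, hs, ht, ← map_mul, ← map_mul, eq_comm, ← inv_mul_eq_one, ← map_inv, ← map_mul, hc]
    exact ab _ s.2 _ t.2)⟩⟩
  have nc : ¬ IsCyclic ((autInducedBy ⊤ E).map π) := fun h => by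
    haveI := Fintype.ofFinite ((autInducedBy ⊤ E).map π)
    have h1 := IsCyclic.card_pow_eq_one_le (α := (autInducedBy ⊤ E).map π) (Fact.out : p.Prime).pos
    have h2 := Nat.card_le_card_of_injective (fun x : κ => (⟨⟨c ⟨f x, hf x⟩, cm _⟩, by
      simp only [Finset.mem_filter, Finset.mem_univ, true_and]
      exact Subtype.ext (by rw [coe_pow, ← map_pow]; exact (hc _).2 (pw x))⟩ :
        (Finset.univ.filter fun a : (autInducedBy ⊤ E).map π => a ^ p = 1))) fun x y e => inj x y (by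
      have e' : c ⟨f x, hf x⟩ = c ⟨f y, hf y⟩ := congrArg (fun a => a.1.1) e
      rw [← inv_mul_eq_one, ← map_inv, ← map_mul, hc] at e'
      exact e')
    rw [Nat.card_eq_fintype_card (α := ↥(Finset.univ.filter _)), Fintype.card_coe] at h2
    omega
  have sy := (D.syl.inf_normal hK).map π
  rw [inf_eq_right.2 hY, (map_eq_bot_iff (f := π) (autInducedBy ⊤ E ⊓ K)).2 (fun a ha =>
    (QuotientGroup.eq_one_iff a).2 (hA a ha.2 ha.1))] at sy
  obtain ⟨k, hk⟩ := IsPGroup.iff_card.1 (D.syl.isPGroup.map π)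
  have h1 := H1.le_of_noncyclic_centralizer_le nc (K := K.map π) (by
      rintro _ ⟨a, ha, rfl⟩
      refine mem_normalizer_fintype ?_
      rintro _ ⟨n, hn, rfl⟩
      exact ⟨_, hK a (D.syl.le ha) n hn, by simp⟩)
    (by
      rw [hk]
      refine Nat.Coprime.pow_left _ (((Fact.out : p.Prime).coprime_iff_not_dvd).2 ?_)
      simpa using sy.not_dvd_relIndex) (H.map π) (by
      rintro _ ⟨a, ha, rfl⟩ a1 _ ⟨⟨n, hn, rfl⟩, h⟩
      refine ⟨n, by_contra fun k => a1 ((QuotientGroup.eq_one_iff a).2 (D.ti n (hY hn) k a ha ?_)), rfl⟩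
      have h2 : a⁻¹ * (n * a * n⁻¹) ∈ Inn E := (QuotientGroup.eq_one_iff _).1 (by
        change π _ = 1
        rw [map_mul, map_mul, map_mul, mem_centralizer_singleton_iff.1 h, map_inv, map_inv]
        group)
      simpa using mul_mem (D.le ha) (D.le (Inn_le_autInducedBy le_top h2)))
  intro n hn
  obtain ⟨h, hh, e⟩ := h1 ⟨n, hn, rfl⟩
  simpa using mul_mem hh (D.le (Inn_le_autInducedBy le_top (QuotientGroup.eq.1 e)))

end Gen

theorem cm_NN {s m : Co} (hs : s ∈ sN) (hm : m ∈ sN) : cm s m ∈ sZ2 := by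
  obtain ⟨p0, p1, p2⟩ := hs
  obtain ⟨q0, q1, q2⟩ := hm
  simp [mem_sZ2, cm_b, cm_a, cm_d, cm_c, cm_e, cm_f, cm_g, cm_h, p0, p1, p2, q0, q1, q2]

theorem cm_NV {s m : Co} (hs : s ∈ sN) (hm : m ∈ sV) : cm s m = 1 := by
  rw [cm_ED (N_le_E2 hs) (V_le_D2 hm)]
  obtain ⟨p0, p1, p2⟩ := hs
  obtain ⟨-, -, -, -, -, q5, q6⟩ := hm
  ext <;> simp [p1, p2, q5, q6]

theorem cm_EV {s m : Co} (hs : s ∈ sE2) (hm : m ∈ sD2) : cm s m ∈ sZ2 := by
  rw [cm_ED hs hm]; simp [mem_sZ2]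

theorem V_le_N : sV ≤ sN := V_le_W.trans W_le_N

theorem pr_V {β : Co → Co} (a : Au sN β) : Pr β sV := fun u hu => by
  have k := a.cm_mem' le_rfl a.mem (pr_bot a) (V_le_N hu) fun y hy => mem_bot.2 (cm_NV hy hu)
  obtain ⟨p0, p1, p2⟩ := a.mem u (V_le_N hu)
  have h1 := mem_bot.1 (k (xh 1) (by simp [mem_sN, xh]))
  have h2 := mem_bot.1 (k (xa 1) (by simp [mem_sN, xa]))
  have e1 := cm_i (xh 1) (β u)
  have e2 := cm_j (xh 1) (β u)
  have e3 := cm_i (xa 1) (β u)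
  have e4 := cm_j (xa 1) (β u)
  rw [h1] at e1 e2
  rw [h2] at e3 e4
  simp [xh, xa, p0, p1, p2] at e1 e2 e3 e4
  exact ⟨p0, e1.symm, e2.symm, p1, p2, e4, e3⟩

theorem pr_Z2 {β : Co → Co} (a : Au sN β) : Pr β sZ2 := fun u hu => by
  have m1 : ∀ t, xh t ∈ sN := fun t => by simp [mem_sN, xh]
  have m2 : xa 1 ∈ sN := by simp [mem_sN, xa]
  have m3 : xd 1 ∈ sN := by simp [mem_sN, xd]
  have e : u = cm (xh u.i) (xa 1) * cm (xh u.j) (xd 1) := by
    obtain ⟨p0, p1, p2, p3, p4, p5, p6, p7⟩ := hu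
    ext <;> simp [cm_b, cm_a, cm_d, cm_c, cm_e, cm_f, cm_g, cm_h, cm_i, cm_j, xh, xa, xd, *]
  rw [e, a.mul _ (V_le_N (Z2_le_V (cm_NN (m1 _) m2))) _ (V_le_N (Z2_le_V (cm_NN (m1 _) m3))),
    a.cm (m1 _) m2, a.cm (m1 _) m3]
  exact mul_mem (cm_NN (a.mem _ (m1 _)) (a.mem _ m2)) (cm_NN (a.mem _ (m1 _)) (a.mem _ m3))

theorem E2_nor {s : Co} (hs : s ∈ sE2) : s ∈ normalizer (sN : Set Co) :=
  mem_nor fun _ hc => D2_le_N (cm_EE hs (N_le_E2 hc))

theorem nor_E2 {s : Co} (hs : s ∈ normalizer (sN : Set Co)) : s ∈ sE2 := by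
  have h := ((mem_normalizer_iff.1 hs (xd 1)).1 (by simp [mem_sN, xd])).2.2
  rw [conj_eq_cm] at h
  simpa [cm_e, cm_b, xd, mem_sE2] using h

theorem jobNN : JobNN := fun Y H D => by
  have pV : ∀ y ∈ Y, Pr (af y) sV := fun y _ => pr_V (au_af y)
  have pZ : ∀ y ∈ Y, Pr (af y) sZ2 := fun y _ => pr_Z2 (au_af y)
  have nK := stb_nm pV (fun y _ => pr_bot (au_af y)) V_le_N
  have f1 : xf 1 ∈ sV := by simp [mem_sV, xf]
  have KH : stb Y ⊥ sV pV ≤ H := le_of_noncyc D (fun _ h => h.1) nK (fun a ha h => by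
      obtain ⟨s, -, e⟩ := mem_autInducedBy.1 h
      have h1 := mem_bot.1 (ha.2 _ f1)
      have h2 := nor_E2 (mem_normalizer_of_af e)
      rw [e _ (V_le_N f1)] at h1
      change cm s (xf 1) = 1 at h1
      rw [cm_ED h2 (V_le_D2 f1)] at h1
      refine mem_Inn.2 ⟨s, ⟨h2, ?_, ?_⟩, e⟩
      · simpa [xf] using congrArg Co.j h1
      · simpa [xf] using congrArg Co.i h1)
    (fun s hs t ht => by
      simpa [cm, mul_assoc] using D2_le_N (cm_EE (inv_mem (nor_E2 ht)) (nor_E2 hs)))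
    (κ := ZMod 3 × ZMod 3) (by simp) (fun x => xc x.1 * xe x.2) (fun x => E2_nor (by simp [mem_sE2, xc, xe]))
    (fun x => ⟨cb_b _, cb_c _, by simp [cb_e, xc, xe]⟩) fun x y h => by
      obtain ⟨-, h1, h2⟩ := h
      simp [xc, xe] at h1 h2
      exact Prod.ext (by linear_combination -h1) (by linear_combination -h2)
  have c1 : xc 1 ∈ sE2 := by simp [mem_sE2, xc]
  have key := D.le_of_pow (N := stb Y ⊥ sZ2 pZ ⊓ stb Y sZ2 sV pV) nK KH (fun a ha => ⟨D.syl.le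
      (Inn_le_autInducedBy le_top ha), fun x hx => by
        obtain ⟨s, hs, e⟩ := mem_Inn.1 ha
        rw [e _ (V_le_N hx)]
        exact mem_bot.2 (cm_NV hs hx)⟩) (fun _ h => h.1.1)
    (fun y hy n hn => ⟨stb_nm pZ (fun y _ => pr_bot (au_af y)) (Z2_le_V.trans V_le_N) y hy n hn.1,
      stb_nm pV pZ V_le_N y hy n hn.2⟩)
    (fun y hy => ⟨1, pow_mem hy.1.1 _, fun x hx => by
      have h1 := hy.2.2 x hx
      rw [af_pow_of_fix (V_le_N hx) (inv_mul_eq_one.1 (mem_bot.1 (hy.1.2 _ h1))).symm, pow_one,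
        cb_N (V_le_N (Z2_le_V h1))]
      simp⟩)
    (show cAut sN (xc 1) (E2_nor c1) ∈ _ from ⟨⟨D.cY _, fun x hx => by
      rw [af_cAut _ (V_le_N (Z2_le_V hx))]; exact mem_bot.2 (cm_EZ c1 hx)⟩, D.cY _, fun x hx => by
      rw [af_cAut _ (V_le_N hx)]; exact cm_EV c1 (V_le_D2 hx)⟩)
  have h1 := mem_bot.1 (key.2 _ f1)
  rw [af_cAut _ (V_le_N f1)] at h1
  change cm (xc 1) (xf 1) = 1 at h1
  rw [cm_ED c1 (V_le_D2 f1)] at h1
  simpa [xf, xc] using congrArg Co.j h1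

end H31.T3
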