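import Cfsg.Agent.H31.T3NN

/-! T3 tower, slot W1: the conjugates of `Z₂` in `W` form a TI set. -/

set_option autoImplicit false
set_option linter.unusedSectionVars false

open Subgroup H92 Cfsg Cfsg.FusionSystem H11.T3 H11.T3.Co
open H90.RF (cm Au Pr au_af mem_nor conj_eq_cm aY mem_aY cm_eq_one)
open H90.U5 (stb stb_nm pr_bot exists_quot jobQ)

namespace H31.T3

/-- the elements of `Z₂` -/
def z2 (i j : ZMod 3) : Co := ⟨0, 0, 0, 0, 0, 0, 0, 0, i, j⟩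

theorem z2_mem (i j : ZMod 3) : z2 i j ∈ sZ2 := by simp [mem_sZ2, z2]

theorem z2_eq {u : Co} (h : u ∈ sZ2) : u = z2 u.i u.j := by
  obtain ⟨p0, p1, p2, p3, p4, p5, p6, p7⟩ := h
  ext <;> simp [z2, *]

theorem z2_pow (i j : ZMod 3) (m : ℕ) : z2 i j ^ m = z2 (m * i) (m * j) := by
  induction m with
  | zero => ext <;> simp [z2]
  | succ m ih => rw [pow_succ, ih]; ext <;> simp [z2, add_mul]

theorem cm_NW {s w : Co} (hs : s ∈ sN) (hw : w ∈ sW) :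
    cm s w = z2 (s.h * w.a - s.g * w.d) (s.g * w.a + s.h * w.d) := by
  obtain ⟨p0, p1, p2⟩ := hs
  obtain ⟨q0, q1, q2, q3, q4⟩ := hw
  ext <;> simp [cm_b, cm_a, cm_d, cm_c, cm_e, cm_f, cm_g, cm_h, cm_i, cm_j, z2, *]
  ring

theorem d1 : ∀ g h i j m n : ZMod 3, ¬ (i = 0 ∧ j = 0) → h = m * i → g = m * j →
    -g = n * i → h = n * j → g = 0 ∧ h = 0 := by decide

theorem d2 : ∀ i j : ZMod 3, ¬ (i = 0 ∧ j = 0) → ∃ p q : ZMod 3,
    ∀ x y : ZMod 3, ∃ k n : ZMod 3, x = k * p + n * i ∧ y = k * q + n * j := by decide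

theorem d3 : (1 : ZMod 3 × ZMod 3) ≠ 0 := by decide

theorem Z2_le_W : sZ2 ≤ sW := Z2_le_V.trans V_le_W

theorem N_nor {s : Co} (hs : s ∈ sN) : s ∈ normalizer (sW : Set Co) :=
  mem_nor fun _ hc => by rw [cm_NW hs hc]; exact Z2_le_W (z2_mem _ _)

theorem nor_N {s : Co} (hs : s ∈ normalizer (sW : Set Co)) : s ∈ sN := by
  obtain ⟨-, -, h1, h2, -⟩ := (mem_normalizer_iff.1 hs (xd 1)).1 (by simp [mem_sW, xd])
  obtain ⟨-, -, -, h3, -⟩ := (mem_normalizer_iff.1 hs (xa 1)).1 (by simp [mem_sW, xa])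
  rw [conj_eq_cm] at h1 h2 h3
  have e1 : s.b = 0 := by simpa [cm_e, cm_b, xd] using h1
  exact ⟨e1, by simpa [cm_g, cm_b, cm_a, cm_d, xd, e1] using h2,
    by simpa [cm_g, cm_b, cm_a, cm_d, xa, e1] using h3⟩

theorem exA {a : MulAut sW} (h : a ∈ autInducedBy ⊤ sW) :
    ∃ s ∈ sN, ∀ x ∈ sW, x⁻¹ * af a x = cm s x := by
  obtain ⟨s, -, e⟩ := mem_autInducedBy.1 h
  exact ⟨s, nor_N (mem_normalizer_of_af e), fun x hx => by rw [e x hx]; rfl⟩

theorem A_Z2 {a : MulAut sW} (h : a ∈ autInducedBy ⊤ sW) {x : Co} (hx : x ∈ sW) :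
    x⁻¹ * af a x ∈ sZ2 := by
  obtain ⟨s, hs, e⟩ := exA h
  rw [e x hx, cm_NW hs hx]; exact z2_mem _ _

theorem A_V {a : MulAut sW} (h : a ∈ autInducedBy ⊤ sW) {x : Co} (hx : x ∈ sV) : af a x = x := by
  obtain ⟨s, hs, e⟩ := exA h
  exact (inv_mul_eq_one.1 ((e x (V_le_W hx)).trans (cm_NV hs hx))).symm

theorem A_sur {a : MulAut sW} (h : a ∈ autInducedBy ⊤ sW) (h1 : a ≠ 1) {u : Co} (hu : u ∈ sZ2) :
    ∃ x ∈ sW, u = x⁻¹ * af a x := by
  obtain ⟨s, hs, e⟩ := exA h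
  have h2 : ¬ (s.g = 0 ∧ s.h = 0) := fun k => h1 (aut_eq_one fun x hx =>
    (inv_mul_eq_one.1 (by rw [e x hx, cm_NW hs hx, k.1, k.2]; ext <;> simp [z2])).symm)
  obtain ⟨x, y, e1, e2⟩ := (by decide : ∀ g h i j : ZMod 3, ¬ (g = 0 ∧ h = 0) →
    ∃ x y, h * x - g * y = i ∧ g * x + h * y = j) _ _ u.i u.j h2
  have hw : (⟨0, x, y, 0, 0, 0, 0, 0, 0, 0⟩ : Co) ∈ sW := by simp [mem_sW]
  exact ⟨_, hw, by rw [e _ hw, cm_NW hs hw, e1, e2, ← z2_eq hu]⟩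

/-- the stabiliser of `Z₂` -/
def sH (Y : Subgroup (MulAut sW)) : Subgroup (MulAut sW) where
  carrier := {y | y ∈ Y ∧ Pr (af y) sZ2}
  one_mem' := ⟨one_mem _, fun x hx => by simpa using hx⟩
  mul_mem' := fun {a b} ha hb => ⟨mul_mem ha.1 hb.1, fun x hx => by
    rw [af_mul_apply]; exact ha.2 _ (hb.2 x hx)⟩
  inv_mem' := fun {a} ha => ⟨inv_mem ha.1, fun x hx => (au_af a).mem_of Z2_le_W ha.2
    (af_mem _ (Z2_le_W hx)) (by rwa [af_af_inv])⟩

variable {Y : Subgroup (MulAut sW)} (sy : SylIn 3 (autInducedBy ⊤ sW) Y)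
include sy

theorem A_le_H : autInducedBy ⊤ sW ≤ sH Y := fun _ ha =>
  ⟨sy.le ha, fun x hx => by rwa [A_V ha (Z2_le_V hx)]⟩

theorem ti {y a : MulAut sW} (hy : y ∈ Y) (ha : a ∈ autInducedBy ⊤ sW) (h1 : a ≠ 1)
    (e : y * a * y⁻¹ ∈ sH Y) : y ∈ sH Y := by
  haveI : Fact (Nat.Prime 3) := ⟨Nat.prime_three⟩
  obtain ⟨h, hh, e'⟩ := (sy.mono (A_le_H sy) fun _ h => h.1).exists_conj (C := zpowers (y * a * y⁻¹))
    ((((sy.isPGroup.to_le (zpowers_le.2 ha)).map (MulAut.conj y).toMonoidHom)).to_le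
      (zpowers_le.2 ⟨a, mem_zpowers a, rfl⟩)) (zpowers_le.2 e)
  refine (mul_mem_cancel_left hh).1 ⟨mul_mem hh.1 hy, fun u hu => ?_⟩
  obtain ⟨x, hx, rfl⟩ := A_sur ha h1 hu
  have := A_Z2 (e' _ (mem_zpowers _)) (af_mem (h * y) hx)
  rw [(au_af _).mul _ (inv_mem hx) _ (af_mem _ hx), (au_af _).inv hx]
  rwa [← af_mul_apply, show h * (y * a * y⁻¹) * h⁻¹ * (h * y) = h * y * a by group,
    af_mul_apply (h * y) a] at this

theorem nor_of (h : ∀ y ∈ Y, Pr (af y) sZ2) : Y ≤ normalizer (autInducedBy ⊤ sW : Set (MulAut sW)) := by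
  haveI : Fact (Nat.Prime 3) := ⟨Nat.prime_three⟩
  have pW : ∀ y ∈ Y, Pr (af y) sW := fun y _ _ => af_mem y
  have e := sy.2.2 (stb Y ⊥ sZ2 h ⊓ stb Y sZ2 sW pW) (fun a ha => ⟨⟨sy.le ha, fun x hx => by
      rw [A_V ha (Z2_le_V hx)]; simp⟩, sy.le ha, fun x hx => A_Z2 ha hx⟩) (fun _ k => k.1.1)
    (isPGroup_iff_forall.2 fun y hy => ⟨1, aut_eq_one fun x hx => by
      have h1 := hy.2.2 x hx
      rw [af_pow_of_fix hx (inv_mul_eq_one.1 (mem_bot.1 (hy.1.2 _ h1))).symm, pow_one,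
        cb_N (W_le_N (Z2_le_W h1)), mul_one]⟩)
  rw [← e]
  exact fun y hy => mem_normalizer_fintype fun n hn =>
    ⟨stb_nm h (fun y _ => pr_bot (au_af y)) Z2_le_W y hy n hn.1, stb_nm pW h le_rfl y hy n hn.2⟩

theorem ti_W {g : MulAut sW} (hg : g ∈ Y) (hg' : ¬ Pr (af g) sZ2) {c : Co} (hc : c ∈ sV)
    (hw : af g c ∈ sZ2) : c = 1 := by
  haveI : Fact (Nat.Prime 3) := ⟨Nat.prime_three⟩
  by_contra c1
  have w1 : af g c ≠ 1 := fun e => c1 ((au_af g).inj c (V_le_W hc) e)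
  generalize hcw : af g c = w at hw w1
  have w0 : ¬ (w.i = 0 ∧ w.j = 0) := fun k => w1 (by rw [z2_eq hw, k.1, k.2]; rfl)
  letI : CommGroup sW := { (inferInstance : Group sW) with
    mul_comm := fun a b => Subtype.ext (cm_eq_one.1 (by
      rw [cm_NW (W_le_N a.2) b.2, a.2.2.2.2.1, a.2.2.2.2.2]; ext <;> simp [z2])) }
  let U : Subgroup sW := zpowers ⟨w, Z2_le_W hw⟩
  have hU : ∀ u : sW, u ∈ U ↔ ∃ m : ℕ, u.1 = z2 (m * w.i) (m * w.j) := fun u => by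
    rw [← mem_powers_iff_mem_zpowers, Submonoid.mem_powers_iff]
    refine exists_congr fun m => ?_
    rw [← z2_pow, ← z2_eq hw, eq_comm, Subtype.ext_iff, coe_pow]
  let L : Subgroup (MulAut sW) := Y ⊓ MulAction.stabilizer _ (⟨w, Z2_le_W hw⟩ : sW)
  have hL : ∀ y ∈ Y, af y w = w → y ∈ L := fun y hy e =>
    ⟨hy, Subtype.ext ((af_of_mem y (Z2_le_W hw)).symm.trans e)⟩
  have AL : ∀ a ∈ autInducedBy ⊤ sW, a ∈ L := fun a ha => hL a (sy.le ha) (A_V ha (Z2_le_V hw))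
  obtain ⟨ρ, hρ⟩ := exists_quot (MonoidHom.id (MulAut sW)) L U fun y hy u ⟨k, hk⟩ => ⟨k, by
    rw [← hk, map_zpow]; exact congrArg (· ^ k) hy.2.symm⟩
  replace hρ : ∀ (y : L) (v : sW), ρ y v = ((y.1 v : sW) : sW ⧸ U) := hρ
  replace hU : ∀ a b : sW, (a : sW ⧸ U) = b ↔ ∃ m : ℕ, a.1⁻¹ * b.1 = z2 (m * w.i) (m * w.j) :=
    fun a b => by rw [QuotientGroup.eq, hU, coe_mul, coe_inv]
  let s : ZMod 3 × ZMod 3 → Co := fun x => ⟨0, 0, 0, 0, 0, 0, x.1, x.2, 0, 0⟩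
  have hs : ∀ x, s x ∈ sN := fun x => by simp [mem_sN, s]
  let t : ZMod 3 × ZMod 3 → L := fun x => ⟨cAut sW (s x) (N_nor (hs x)), AL _ (cAut_mem _ trivial)⟩
  have ht : ∀ x, (t x).1 ∈ autInducedBy ⊤ sW := fun x => cAut_mem _ trivial
  have inj : ∀ x y, ρ (t x) = ρ (t y) → x = y := fun x y e => by
    have k : ∀ v : sW, ∃ m : ℕ, (cm (s x) v)⁻¹ * cm (s y) v = z2 (m * w.i) (m * w.j) := fun v => by
      have h1 := hρ (t x) v
      rw [e, hρ] at h1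
      obtain ⟨m, hm⟩ := (hU _ _).1 h1.symm
      have k1 : ∀ x, (((t x).1 v : sW) : Co) = s x * v.1 * (s x)⁻¹ := fun x =>
        (af_coe _ _).symm.trans (af_cAut (N_nor (hs x)) v.2)
      rw [k1, k1] at hm
      refine ⟨m, Eq.trans ?_ hm⟩
      simp only [cm]; group
    obtain ⟨m, h1⟩ := k ⟨xa 1, by simp [mem_sW, xa]⟩
    obtain ⟨m', h2⟩ := k ⟨xd 1, by simp [mem_sW, xd]⟩
    rw [cm_NW (hs _) (by simp [mem_sW, xa]), cm_NW (hs _) (by simp [mem_sW, xa])] at h1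
    rw [cm_NW (hs _) (by simp [mem_sW, xd]), cm_NW (hs _) (by simp [mem_sW, xd])] at h2
    have e1 := congrArg Co.i h1
    have e2 := congrArg Co.j h1
    have e3 := congrArg Co.i h2
    have e4 := congrArg Co.j h2
    simp [z2, s, xa, xd] at e1 e2 e3 e4
    have := d1 (y.1 - x.1) (y.2 - x.2) w.i w.j m m' w0
      (by linear_combination e1) (by linear_combination e2) (by linear_combination e3)
      (by linear_combination e4)
    exact Prod.ext (sub_eq_zero.1 this.1).symm (sub_eq_zero.1 this.2).symm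
  have t0 : t 0 = 1 := Subtype.ext (aut_eq_one fun x hx => by
    rw [af_cAut _ hx, show s 0 = 1 from rfl]; simp)
  have t1 : ρ (t 1) ≠ 1 := fun e => d3 (inj 1 0 (by rw [e, t0, map_one]))
  have key := jobQ 3 L (sW ⧸ U) ((sH Y).subgroupOf L) ((autInducedBy ⊤ sW).subgroupOf L) ρ
    ((pgroup_Co.to_subgroup sW).to_quotient U)
    (fun e => hg' (ti sy hg (ht 1) (fun k => t1 (by rw [show t 1 = 1 from Subtype.ext k, map_one]))
      (subgroupOf_eq_top.1 e (hL _ (mul_mem (mul_mem hg (sy.le (ht 1))) (inv_mem hg)) (by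
        rw [← hcw, af_mul_apply, af_mul_apply, af_inv_af, A_V (ht 1) hc])))).2)
    (fun a ha => A_le_H sy ha)
    (fun y hy => ⟨y.2.1, fun u hu => by
      have h1 := hρ y ⟨u, Z2_le_W hu⟩
      rw [show ρ y = 1 from hy] at h1
      obtain ⟨m, hm⟩ := (hU _ _).1 h1
      have h2 : u⁻¹ * af y.1 u ∈ sZ2 := by
        rw [af_of_mem _ (Z2_le_W hu), hm]; exact z2_mem _ _
      simpa using mul_mem hu h2⟩)
    (fun y hy a ha e => by
      rw [show a = 1 from Subtype.ext (by_contra fun k => hy (ti sy y.2.1 ha k e)), map_one])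
    (fun a ha b hb v => by
      induction v using QuotientGroup.induction_on with
      | H v =>
        rw [hρ, ← QuotientGroup.mk_inv, ← QuotientGroup.mk_mul, hρ]
        congr 1
        refine Subtype.ext ((af_coe a.1 _).symm.trans (A_V ha (Z2_le_V ?_)))
        have := A_Z2 hb v.2
        rwa [af_coe] at this)
    (t 1) (ht 1) t1
  obtain ⟨p, q, hp⟩ := d2 _ _ w0
  have h1 := Nat.card_le_card_of_injective (fun x => (⟨ρ (t x), t x, ht x, rfl⟩ :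
    ((autInducedBy ⊤ sW).subgroupOf L).map ρ)) fun x y e => inj x y (congrArg Subtype.val e)
  have h2 := Set.ncard_le_ncard (s := Set.range fun v : sW ⧸ U => v⁻¹ * ρ (t 1) v)
    (t := (fun k : ZMod 3 => ((⟨z2 (k * p) (k * q), Z2_le_W (z2_mem _ _)⟩ : sW) : sW ⧸ U)) '' Set.univ) (by
      rintro _ ⟨v, rfl⟩
      induction v using QuotientGroup.induction_on with
      | H v =>
        have h3 := A_Z2 (ht 1) v.2
        obtain ⟨k, n, e1, e2⟩ := hp (v.1⁻¹ * af (t 1).1 v.1).i (v.1⁻¹ * af (t 1).1 v.1).j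
        refine ⟨k, trivial, ?_⟩
        change _ = (v : sW ⧸ U)⁻¹ * ρ (t 1) v
        rw [hρ, ← QuotientGroup.mk_inv, ← QuotientGroup.mk_mul]
        refine (hU _ _).2 ⟨n.val, ?_⟩
        rw [coe_mul, coe_inv, ← af_coe, z2_eq h3, e1, e2]
        ext <;> simp [z2]) (Set.toFinite _)
  have h3 := (key.trans h2).trans (Set.ncard_image_le (Set.toFinite _))
  have := h1.trans h3
  simp at this

omit sy in
theorem jobW1 : JobW1 := fun F hF hE => by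
  haveI : Fact (Nat.Prime 3) := ⟨Nat.prime_three⟩
  have hS : IsPGroup 3 (⊤ : Subgroup Co) := pgroup_Co.to_subgroup _
  obtain ⟨h1, h2, h3⟩ := (isEssential_iff hS hF).1 hE
  have sy := sylIn_of_fn hS hF h2
  refine ⟨by_contra fun k => h3 fun y hy => ?_, ?_⟩
  · have g1 : xg 1 ∈ sN := by simp [mem_sN, xg]
    refine relSE_extSub hS hF (fc_of_fn hS hF h2) _ (lt_of_le_of_ne (Inn_le_autInducedBy le_top) fun e => ?_)
      le_rfl ⟨hy, nor_of sy (fun y hy => by_contra fun k' => k ⟨_, mem_aY.2 ⟨y, hy, rfl⟩, k'⟩) hy⟩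
    have := (cAut_mem_Inn_iff (centralizerIn_le_of_centric hE.1) le_top ⟨trivial, N_nor g1⟩).1
      (e ▸ cAut_mem _ trivial)
    simpa [xg] using this.2.2.2.1
  · rintro _ ⟨g, hg, rfl⟩ hg' c hc hw
    exact ti_W sy hg hg' hc hw

end H31.T3
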